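import Mathlib
import Cfsg.Agent.R2.H27S.ESeven

/-!
# Subsystems of `E₇` from tables (S5934, box S)

`Tab` : a table of a closed subsystem of the roots of type `E₇` with base `b`.
-/

set_option autoImplicit false
set_option linter.unusedSectionVars false
set_option linter.dupNamespace false

namespace Cfsg.Agent.R2.H27S.Tab

open CoxeterSystem Cfsg.Agent.ChevalleyStructure.CoxeterGeom Cfsg.Agent.Tits.Roots Cfsg.Agent.Tits.Core
  Cfsg.Agent.Nodes.Reps Cfsg.Agent.Nodes.BNOf Cfsg.Agent.Nodes.StabComb Cfsg.Agent.Nodes.Bruhat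
  Cfsg.Agent.Nodes.OppDec Cfsg.Agent.Nodes.LeviDec Cfsg.Agent.Nodes.SubComb Cfsg.Agent.Nodes.Coroot
  Cfsg.Agent.KFacts.RgdSL Cfsg.Agent.KFacts.RgdTI Cfsg.Agent.KFacts.RgdCent Cfsg.Agent.KFacts.RgdPar
open Cfsg.Lie Cfsg.Agent.ChevalleyStructure Cfsg.Agent.ChevalleyStructure.Elts Cfsg.Agent.Nodes.RGDChev
  Cfsg.Agent.ChevalleyStructure.CoxeterGeomTypes Cfsg.Agent.KFacts.RgdChevCoord
open Cfsg.Agent.H904.E7Lat Cfsg.Agent.H904.E7Form Cfsg.Agent.H904.E7Main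
open Cfsg.Agent.R2.H27S.Gen Cfsg.Agent.R2.H27S.SubG Cfsg.Agent.R2.H27S.ESeven
open scoped commutatorElement

universe u

/-- the table of a subsystem -/
structure Tab {l : ℕ} (A' : Fin l → Fin l → ℤ) (b : Fin l → ℕ) (pc : List (ℕ × (Fin l → ℤ)))
    (Fl : List ((Fin 7 → ℤ) × ℤ)) (Li : Fin l → Fin 7 → ℤ) (D : ℤ) : Prop where
  blt : ∀ j, b j < 126
  car : ∀ j k, bf (rv (b k)) (rv (b j)) = A' j k
  D0 : D ≠ 0
  linv : ∀ j k, ∑ i, Li j i * rv (b k) i = if j = k then D else 0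
  pc1 : ∀ e ∈ pc, e.1 < 126 ∧ (∀ j, 0 ≤ e.2 j) ∧ ∀ i, rv e.1 i = ∑ j, e.2 j * rv (b j) i
  fl : ∀ f ∈ Fl, ∀ j, f.2 ∣ ∑ i, f.1 i * rv (b j) i
  com : ∀ r < 126, (∀ f ∈ Fl, f.2 ∣ ∑ i, f.1 i * rv r i) → ∃ e ∈ pc, e.1 = r ∨ e.1 = chevE7.neg r
  nd : (pc.map Prod.snd).Nodup

/-- the base -/
def bb {l : ℕ} (b : Fin l → ℕ) : Fin l → Fin 7 → ℤ := fun j => rv (b j)

theorem iota_apply' {l : ℕ} (b : Fin l → ℕ) (c : Fin l → ℤ) (i : Fin 7) :
    iota (bb b) c i = ∑ j, c j * rv (b j) i := by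
  rw [iota_apply, Finset.sum_apply]
  rfl

namespace Tab

variable {l : ℕ} {A' : Fin l → Fin l → ℤ} {b : Fin l → ℕ} {pc : List (ℕ × (Fin l → ℤ))}
  {Fl : List ((Fin 7 → ℤ) × ℤ)} {Li : Fin l → Fin 7 → ℤ} {D : ℤ} (t : Tab A' b pc Fl Li D)

include t

theorem iota_inj {c d : Fin l → ℤ} (e : iota (bb b) c = iota (bb b) d) : c = d := by
  have key : ∀ c : Fin l → ℤ, ∀ j, ∑ i, Li j i * iota (bb b) c i = D * c j := by
    intro c j
    simp only [iota_apply', Finset.mul_sum]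
    rw [Finset.sum_comm]
    have h1 : ∀ k, ∑ i, Li j i * (c k * rv (b k) i) = c k * if j = k then D else 0 := by
      intro k
      rw [← t.linv j k, Finset.mul_sum]
      exact Finset.sum_congr rfl fun i _ => by ring
    rw [Finset.sum_congr rfl fun k _ => h1 k]
    simp [mul_comm]
  funext j
  have h1 := key c j
  rw [e, key d j] at h1
  exact mul_left_cancel₀ t.D0 h1.symm

theorem exists_subSys : ∃ (w : Fin l → W7) (i : Fin l → Fin 7), SubSys cs7 h7 A' (bb b) w i := by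
  have h1 : ∀ j, IsRoot cs7 h7 (bb b j) := fun j => isRoot_rv (t.blt j)
  choose w i hw using h1
  refine ⟨w, i, hw, fun j k => ?_, fun c hc => ?_⟩
  · have h2 := cpr_rep_sr cs7 h7 (bb b k) (w j) (i j)
    rw [← h2, ← hw j]
    exact (cpr_eq _ (isRoot_rv (t.blt j))).trans (t.car j k)
  · exact t.iota_inj (by rw [hc, map_zero])

theorem dvd_iota {f : (Fin 7 → ℤ) × ℤ} (hf : f ∈ Fl) (c : Fin l → ℤ) : f.2 ∣ ∑ i, f.1 i * iota (bb b) c i := by
  have h1 : ∑ i, f.1 i * iota (bb b) c i = ∑ j, c j * ∑ i, f.1 i * rv (b j) i := by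
    simp only [iota_apply', Finset.mul_sum]
    rw [Finset.sum_comm]
    exact Finset.sum_congr rfl fun j _ => Finset.sum_congr rfl fun i _ => by ring
  rw [h1]
  exact Finset.dvd_sum fun j _ => Dvd.dvd.mul_left (t.fl f hf j) _

theorem iota_pc {e : ℕ × (Fin l → ℤ)} (he : e ∈ pc) : iota (bb b) e.2 = rv e.1 := by
  funext i
  rw [iota_apply', (t.pc1 e he).2.2 i]

/-- the roots in the lattice of the subsystem -/
theorem mem_of_isRoot {c : Fin l → ℤ} (hc : IsRoot cs7 h7 (iota (bb b) c)) :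
    ∃ e ∈ pc, c = e.2 ∨ c = -e.2 := by
  obtain ⟨r, hr, e⟩ := (isRoot_iff7 _).1 hc
  obtain ⟨f, hf, h1⟩ := t.com r hr fun f hf => by
    have := t.dvd_iota hf c
    rw [← e] at this
    exact this
  refine ⟨f, hf, ?_⟩
  rcases h1 with h1 | h1
  · left
    apply t.iota_inj
    rw [t.iota_pc hf, h1, e]
  · right
    apply t.iota_inj
    rw [map_neg, t.iota_pc hf, h1, rv_neg hr, neg_neg, e]

theorem hbase (c : Fin l → ℤ) (hc : IsRoot cs7 h7 (iota (bb b) c)) : 0 ≤ c ∨ c ≤ 0 := by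
  obtain ⟨e, he, h1 | h1⟩ := t.mem_of_isRoot hc
  · left; rw [h1]; exact (t.pc1 e he).2.1
  · right; rw [h1]; exact neg_nonpos.2 (t.pc1 e he).2.1

section Sub

variable {W' : Type*} [Group W'] {M' : CoxeterMatrix (Fin l)} (cs' : CoxeterSystem M' W') (h' : IsCartan M' A')

theorem isRoot_iff' (c : Fin l → ℤ) : IsRoot cs' h' c ↔ IsRoot cs7 h7 (iota (bb b) c) := by
  obtain ⟨w, i, S⟩ := t.exists_subSys
  exact ⟨fun h => S.isRoot_iota h, fun h => S.isRoot_of_iota cs' h' t.hbase h⟩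

theorem pos_iff (c : Fin l → ℤ) : c ∈ RGD.Pos cs' h' ↔ ∃ e ∈ pc, e.2 = c := by
  constructor
  · rintro ⟨h1, h2⟩
    obtain ⟨e, he, h3 | h3⟩ := t.mem_of_isRoot ((t.isRoot_iff' cs' h' c).1 h1)
    · exact ⟨e, he, h3.symm⟩
    · exfalso
      have h4 := (t.pc1 e he).2.1
      have h5 : c = 0 := le_antisymm (by rw [h3]; exact neg_nonpos.2 h4) h2
      exact h1.ne_zero h5
  · rintro ⟨e, he, rfl⟩
    refine ⟨(t.isRoot_iff' cs' h' _).2 ?_, (t.pc1 e he).2.1⟩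
    rw [t.iota_pc he]
    exact isRoot_rv (t.pc1 e he).1

theorem ncard_pos : (RGD.Pos cs' h').ncard = pc.length := by
  classical
  have h1 : RGD.Pos cs' h' = ((pc.map Prod.snd).toFinset : Set (Fin l → ℤ)) := by
    ext c
    rw [t.pos_iff cs' h' c]
    simp
  rw [h1, Set.ncard_coe_finset, List.toFinset_card_of_nodup t.nd, List.length_map]

/-- the roots of the subsystem -/
theorem range_eq : {x | ∃ c, IsRoot cs' h' c ∧ x = iota (bb b) c} =
    {x | ∃ e ∈ pc, x = rv e.1 ∨ x = rv (chevE7.neg e.1)} := by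
  ext x
  constructor
  · rintro ⟨c, hc, rfl⟩
    obtain ⟨e, he, h3 | h3⟩ := t.mem_of_isRoot ((t.isRoot_iff' cs' h' c).1 hc)
    · exact ⟨e, he, Or.inl (by rw [h3, t.iota_pc he])⟩
    · exact ⟨e, he, Or.inr (by rw [h3, map_neg, t.iota_pc he, rv_neg (t.pc1 e he).1])⟩
  · rintro ⟨e, he, rfl | rfl⟩
    · refine ⟨e.2, (t.isRoot_iff' cs' h' _).2 ?_, (t.iota_pc he).symm⟩
      rw [t.iota_pc he]
      exact isRoot_rv (t.pc1 e he).1
    · refine ⟨-e.2, (t.isRoot_iff' cs' h' _).2 ?_, ?_⟩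
      · rw [map_neg, t.iota_pc he]
        exact (isRoot_rv (t.pc1 e he).1).neg
      · rw [map_neg, t.iota_pc he, rv_neg (t.pc1 e he).1]

end Sub

end Tab

/-! ### Groups -/

section Grp

variable (K : Type u) [Field K] [Finite K] [CharP K 2]

/-- the group generated by the root groups of a list of roots -/
def GS (L : List ℕ) : Subgroup ↥(chevE7.group K) := RGD.Sup (X7 K) {x | ∃ r ∈ L, x = rv r}

theorem X_le_GS {L : List ℕ} {r : ℕ} (hr : r ∈ L) : X7 K (rv r) ≤ GS K L :=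
  RGD.le_Sup (S := {x | ∃ r ∈ L, x = rv r}) ⟨r, hr, rfl⟩

theorem GS_le {L : List ℕ} {H : Subgroup ↥(chevE7.group K)} (h : ∀ r ∈ L, X7 K (rv r) ≤ H) : GS K L ≤ H := by
  refine RGD.Sup_le ?_
  rintro _ ⟨r, hr, rfl⟩
  exact h r hr

theorem GS_mono {L L' : List ℕ} (h : ∀ r ∈ L, r ∈ L') : GS K L ≤ GS K L' := GS_le K fun r hr => X_le_GS K (h r hr)

/-- the roots of a table -/
def rts {l : ℕ} (pc : List (ℕ × (Fin l → ℤ))) : List ℕ := pc.map Prod.fst ++ pc.map fun e => chevE7.neg e.1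

variable {l : ℕ} {A' : Fin l → Fin l → ℤ} {b : Fin l → ℕ} {pc : List (ℕ × (Fin l → ℤ))}
  {Fl : List ((Fin 7 → ℤ) × ℤ)} {Li : Fin l → Fin 7 → ℤ} {D : ℤ} (t : Tab A' b pc Fl Li D)
  {W' : Type*} [Group W'] {M' : CoxeterMatrix (Fin l)} (cs' : CoxeterSystem M' W') (h' : IsCartan M' A')

include t cs' h'

theorem HS_eq : HS cs' h' (T7 K) (X7 K) (bb b) = T7 K ⊔ GS K (rts pc) := by
  unfold HS GS
  rw [t.range_eq cs' h']
  congr 2
  ext x
  constructor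
  · rintro ⟨e, he, h1 | h1⟩
    · exact ⟨e.1, List.mem_append_left _ (List.mem_map_of_mem he), h1⟩
    · exact ⟨chevE7.neg e.1, List.mem_append_right _ (List.mem_map.2 ⟨e, he, rfl⟩), h1⟩
  · rintro ⟨r, hr, rfl⟩
    rcases List.mem_append.1 hr with h1 | h1
    · obtain ⟨e, he, rfl⟩ := List.mem_map.1 h1
      exact ⟨e, he, Or.inl rfl⟩
    · obtain ⟨e, he, rfl⟩ := List.mem_map.1 h1
      exact ⟨e, he, Or.inr rfl⟩

theorem card_sum [Fintype W'] : Nat.card ↥(T7 K ⊔ GS K (rts pc)) =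
    Nat.card (T7 K) * Nat.card K ^ pc.length * ∑ w : W', Nat.card K ^ cs'.length w := by
  obtain ⟨w, i, S⟩ := t.exists_subSys
  rw [← HS_eq K t cs' h', card_HS (cs' := cs') (h' := h') (R7 K) sl7 S t.hbase (fun x hx => card_X7 K hx),
    t.ncard_pos cs' h']

theorem card_A [Finite W'] (L : List ((ℕ → Fin l) × ℕ))
    (hL : ∀ k : ℕ, ∀ hk : k < L.length, Cfsg.Agent.H35.Poin.APath A'
      (Set.univ \ {j | ∃ e ∈ L.take k, ∃ t < e.2, e.1 t = j}) (L[k].1) (L[k].2))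
    (hall : ∀ j, ∃ e ∈ L, ∃ t < e.2, e.1 t = j) : Nat.card ↥(T7 K ⊔ GS K (rts pc)) =
    Nat.card (T7 K) * Nat.card K ^ pc.length *
      (L.map fun e => ∏ i ∈ Finset.range e.2, ∑ t ∈ Finset.range (i + 2), Nat.card K ^ t).prod := by
  obtain ⟨w, i, S⟩ := t.exists_subSys
  rw [← HS_eq K t cs' h', card_HS' (cs' := cs') (h' := h') (R7 K) sl7 S t.hbase (fun x hx => card_X7 K hx) L hL hall,
    t.ncard_pos cs' h']

omit [CharP K 2] [Finite K] in
theorem simple [Fintype K] [CharP K 2] (hK : Fintype.card K = 2) [Nonempty (Fin l)]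
    (hconn : ∀ J : Set (Fin l), J.Nonempty → J ≠ Set.univ → ∃ a ∈ J, ∃ b, b ∉ J ∧ M' a b ≠ 2)
    (hadj : ∀ i, ∃ j, A' j i = -1) : IsSimpleGroup ↥(GS K (rts pc)) := by
  obtain ⟨w, i, S⟩ := t.exists_subSys
  have hT := T7_eq_bot K hK
  have h1 := simple_HS (cs' := cs') (h' := h') (R7 K) sl7 S t.hbase hT hconn hadj
  rwa [HS_eq K t cs' h', hT, bot_sup_eq] at h1

end Grp

/-! ### Centralisers over `F₂` -/

section Cent

variable (K : Type u) [Field K] [Fintype K] [CharP K 2]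

/-- The centraliser of the root groups of a symmetric set of roots. -/
theorem cent_le {L L' : List ℕ} (hL : ∀ r ∈ L, r < 126 ∧ chevE7.neg r ∈ L)
    (hL' : ∀ r < 126, (∀ s ∈ L, bf (rv r) (rv s) = 0) → r ∈ L') {g : ↥(chevE7.group K)}
    (hg : g ∈ Subgroup.centralizer (GS K L : Set ↥(chevE7.group K))) : g ∈ T7 K ⊔ GS K L' := by
  have h1 := Cfsg.Agent.KFacts.RgdCent.cent_le (R7 K) (Psi := {x | ∃ r ∈ L, x = rv r}) (by
    rintro _ ⟨r, hr, rfl⟩
    exact lr7 K (isRoot_rv (hL r hr).1)) (g := g) (by rw [GG7 K]; exact Subgroup.mem_top g) (by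
    rintro _ ⟨r, hr, rfl⟩ v hv
    exact (Subgroup.mem_centralizer_iff.1 hg v (X_le_GS K hr hv)).symm)
  refine (?_ : PS (T7 K) (X7 K) _ ≤ _) h1
  unfold PS
  refine sup_le_sup_left (RGD.Sup_le ?_) _
  rintro x ⟨hx, h2⟩
  obtain ⟨r, hr, rfl⟩ := (isRoot_iff7 x).1 hx
  refine X_le_GS K (hL' r hr fun s hs => ?_)
  have h3 := h2 (rv s) ⟨s, hs, rfl⟩
  have h4 := h2 (rv (chevE7.neg s)) ⟨_, (hL s hs).2, rfl⟩
  rw [cpr_eq _ (isRoot_rv (hL s hs).1)] at h3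
  rw [cpr_eq _ (isRoot_rv (neg_lt7 s (hL s hs).1)), rv_neg (hL s hs).1, bf_neg] at h4
  omega

theorem comm_of_bf {r s : ℕ} (hr : r < 126) (hs : s < 126) (h : bf (rv r) (rv s) = 0) :
    ∀ u ∈ X7 K (rv r), ∀ v ∈ X7 K (rv s), u * v = v * u :=
  fun u hu v hv => (lr7 K (isRoot_rv hs)).comm (rv r) (isRoot_rv hr) (by rw [cpr_eq _ (isRoot_rv hs), h]) u hu v hv

theorem GS_le_centralizer {L L' : List ℕ} (hL : ∀ r ∈ L, r < 126) (hL' : ∀ r ∈ L', r < 126)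
    (h : ∀ r ∈ L', ∀ s ∈ L, bf (rv r) (rv s) = 0) :
    GS K L' ≤ Subgroup.centralizer (GS K L : Set ↥(chevE7.group K)) := by
  rw [Subgroup.le_centralizer_iff]
  refine GS_le K fun s hs => ?_
  rw [Subgroup.le_centralizer_iff]
  refine GS_le K fun r hr => ?_
  intro u hu
  rw [Subgroup.mem_centralizer_iff]
  intro v hv
  exact (comm_of_bf K (hL' r hr) (hL s hs) (h r hr s hs) u hu v hv).symm

/-- **The centraliser over `F₂`.** -/
theorem cent_eq (hK : Fintype.card K = 2) {L L' : List ℕ} (hL : ∀ r ∈ L, r < 126 ∧ chevE7.neg r ∈ L)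
    (hL' : ∀ r ∈ L', r < 126) (h : ∀ r < 126, (r ∈ L' ↔ ∀ s ∈ L, bf (rv r) (rv s) = 0)) :
    Subgroup.centralizer (GS K L : Set ↥(chevE7.group K)) = GS K L' := by
  apply le_antisymm
  · intro g hg
    have h1 := cent_le K hL (fun r hr h0 => (h r hr).2 h0) hg
    rwa [T7_eq_bot K hK, bot_sup_eq] at h1
  · exact GS_le_centralizer K (fun r hr => (hL r hr).1) hL' fun r hr => (h r (hL' r hr)).1 hr

end Cent

end Cfsg.Agent.R2.H27S.Tab
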