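import Mathlib
import Cfsg.Agent.R2.H27S.FTwo

/-!
# Weyl group elements of `E₇(2)` given by words (S5934, box S)
-/

set_option autoImplicit false
set_option linter.unusedSectionVars false

namespace Cfsg.Agent.R2.H27S.Wel

open CoxeterSystem Cfsg.Agent.ChevalleyStructure.CoxeterGeom Cfsg.Agent.Tits.Roots Cfsg.Agent.Tits.Core
  Cfsg.Agent.Nodes.Reps Cfsg.Agent.Nodes.BNOf Cfsg.Agent.Nodes.StabComb Cfsg.Agent.Nodes.Bruhat
  Cfsg.Agent.Nodes.OppDec Cfsg.Agent.Nodes.LeviDec Cfsg.Agent.Nodes.SubComb Cfsg.Agent.Nodes.Coroot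
  Cfsg.Agent.KFacts.RgdSL Cfsg.Agent.KFacts.RgdTI Cfsg.Agent.KFacts.RgdCent Cfsg.Agent.KFacts.RgdPar
open Cfsg.Lie Cfsg.Agent.ChevalleyStructure Cfsg.Agent.ChevalleyStructure.Elts Cfsg.Agent.Nodes.RGDChev
  Cfsg.Agent.ChevalleyStructure.CoxeterGeomTypes Cfsg.Agent.ChevalleyStructure.NPerm
  Cfsg.Agent.KFacts.RgdChevCoord
open Cfsg.Agent.H904.E7Lat Cfsg.Agent.H904.E7Form Cfsg.Agent.H904.E7Main
open Cfsg.Agent.R2.H27 (G7)
open Cfsg.Agent.R2.H27S.ESeven Cfsg.Agent.R2.H27S.FTwo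

/-- a word in the simple reflections acting on the roots -/
def act (L : List ℕ) (r : ℕ) : ℕ := L.foldr chevE7.reflectRoot r

theorem act_lt {L : List ℕ} (hL : ∀ i ∈ L, i < 7) {r : ℕ} (hr : r < 126) : act L r < 126 := by
  induction L with
  | nil => exact hr
  | cons i L ih =>
    have h1 := ih fun j hj => hL j (List.mem_cons_of_mem _ hj)
    have h2 := reflectRoot_lt hp7.inList (show i < chevE7.rank from hL i List.mem_cons_self)
      (s := act L r) (by rw [nroots_eq]; exact h1)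
    rw [nroots_eq] at h2
    exact h2

/-- the element of the Weyl group given by a word -/
theorem exists_word (L : List ℕ) (hL : ∀ i ∈ L, i < 7) : ∃ w : W7, ∀ r < 126, rep cs7 h7 w (rv r) = rv (act L r) := by
  induction L with
  | nil => exact ⟨1, fun r _ => by rw [map_one, Module.End.one_apply]; rfl⟩
  | cons i L ih =>
    obtain ⟨w, hw⟩ := ih fun j hj => hL j (List.mem_cons_of_mem _ hj)
    refine ⟨cs7.simple ⟨i, hL i List.mem_cons_self⟩ * w, fun r hr => ?_⟩
    rw [rep_mul_apply, hw r hr]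
    exact rep_vec hp7 cs7 ⟨i, hL i List.mem_cons_self⟩ (r := act L r)
      (by rw [nroots_eq]; exact act_lt (fun j hj => hL j (List.mem_cons_of_mem _ hj)) hr)

/-- the representative in `E₇(2)` -/
theorem exists_rep (L : List ℕ) (hL : ∀ i ∈ L, i < 7) : ∃ (w : W7) (g : G7), Rp cs7 (R7 F2).nsys w g ∧
    (∀ r < 126, rep cs7 h7 w (rv r) = rv (act L r)) ∧ ∀ r < 126, g * xe r * g⁻¹ = xe (act L r) := by
  obtain ⟨w, hw⟩ := exists_word L hL
  obtain ⟨g, hg⟩ := exists_rp cs7 (R7 F2).nsys w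
  exact ⟨w, g, hg, hw, fun r hr => xe_conj hg hr (act_lt hL hr) (hw r hr)⟩

theorem sr_eq (i : Fin 7) : (sr i : V) = rv (chevE7.simple i) := (vec_simple hp7 i).symm

theorem simple_lt7 (i : Fin 7) : chevE7.simple i < 126 := by
  have h := simple_lt hp7.inList (show (i : ℕ) < chevE7.rank from i.2)
  rw [nroots_eq] at h
  exact h

/-- an element of the Weyl group is determined by its action on the roots -/
theorem eq_one_of_act {w : W7} (h : ∀ r < 126, rep cs7 h7 w (rv r) = rv r) : w = 1 := by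
  apply rep_injective cs7 h7
  rw [map_one]
  apply LinearMap.pi_ext'
  intro i
  apply LinearMap.ext_ring
  show rep cs7 h7 w (Pi.single i 1) = Pi.single i 1
  have h1 := h _ (simple_lt7 i)
  rw [← sr_eq] at h1
  exact h1

end Cfsg.Agent.R2.H27S.Wel
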