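import Mathlib
import Cfsg.Agent.R2.H27S.Wel
import Cfsg.Agent.R2.H27S.Tab

/-!
# Conjugation of groups generated by root groups of `E₇(2)` (S5934, box S)
-/

set_option autoImplicit false

namespace Cfsg.Agent.R2.H27S.Conj

open Cfsg.Lie Cfsg.Agent.ChevalleyStructure
open Cfsg.Agent.R2.H27 (G7)
open Cfsg.Agent.R2.H27S.ESeven Cfsg.Agent.R2.H27S.FTwo Cfsg.Agent.R2.H27S.Wel Cfsg.Agent.R2.H27S.Tab

theorem conj_mem_of_le {Y : Type*} [Group Y] {A B : Subgroup Y} {n : Y} (h : A ≤ B.comap (MulAut.conj n).toMonoidHom)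
    {x : Y} (hx : x ∈ A) : n * x * n⁻¹ ∈ B := h hx

theorem le_comap_of {L : List ℕ} {B : Subgroup G7} {n : G7}
    (h : ∀ r ∈ L, n * xe r * n⁻¹ ∈ B) (hL : ∀ r ∈ L, r < 126) :
    GS F2 L ≤ B.comap (MulAut.conj n).toMonoidHom := by
  refine GS_le F2 fun r hr => ?_
  rw [X7_eq_zpowers (hL r hr), Subgroup.zpowers_le, Subgroup.mem_comap]
  exact h r hr

theorem xe_mem_GS {L : List ℕ} {r : ℕ} (hr : r ∈ L) (h : r < 126) : xe r ∈ GS F2 L := X_le_GS F2 hr (xe_mem h)

/-- conjugation permutes the roots -/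
theorem conj_mem_GS {L L' : List ℕ} {n : G7} {f : ℕ → ℕ} (hn : ∀ r < 126, n * xe r * n⁻¹ = xe (f r))
    (hL : ∀ r ∈ L, r < 126 ∧ f r < 126 ∧ f r ∈ L') {x : G7} (hx : x ∈ GS F2 L) : n * x * n⁻¹ ∈ GS F2 L' := by
  refine conj_mem_of_le (le_comap_of (fun r hr => ?_) fun r hr => (hL r hr).1) hx
  rw [hn r (hL r hr).1]
  exact xe_mem_GS (hL r hr).2.2 (hL r hr).2.1

/-- `⟨X, n⟩` for an involution `n` normalizing `X` -/
theorem card_sup_zpowers {Y : Type*} [Group Y] {X : Subgroup Y} {n : Y} (hn : n * n = 1) (hX : n ∉ X)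
    (hN : ∀ x ∈ X, n * x * n⁻¹ ∈ X) :
    Nat.card ↥(X ⊔ Subgroup.zpowers n) = 2 * Nat.card X ∧ X ⊔ Subgroup.zpowers n ≤ Subgroup.normalizer (X : Set Y) := by
  have hni : n⁻¹ = n := inv_eq_of_mul_eq_one_left hn
  have hN' : n ∈ Subgroup.normalizer (X : Set Y) := by
    rw [Subgroup.mem_normalizer_iff]
    intro x
    refine ⟨hN x, fun h => ?_⟩
    have h1 := hN _ h
    have h2 : n * (n * x * n⁻¹) * n⁻¹ = x := by
      rw [hni]
      calc n * (n * x * n) * n = (n * n) * x * (n * n) := by group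
        _ = x := by rw [hn]; group
    rwa [h2] at h1
  have hle : X ⊔ Subgroup.zpowers n ≤ Subgroup.normalizer (X : Set Y) :=
    sup_le Subgroup.le_normalizer (by rwa [Subgroup.zpowers_le])
  refine ⟨?_, hle⟩
  have hn' : n ∈ X ⊔ Subgroup.zpowers n := Subgroup.mem_sup_right (Subgroup.mem_zpowers n)
  have key : ∀ g ∈ X ⊔ Subgroup.zpowers n, g ∈ X ∨ g * n ∈ X := by
    intro g hg
    rw [Subgroup.sup_eq_closure_mul, ← Subgroup.closure_eq X] at hg
    rw [Subgroup.closure_eq] at hg
    refine Subgroup.closure_induction (p := fun g _ => g ∈ X ∨ g * n ∈ X) ?_ (Or.inl (one_mem _)) ?_ ?_ hg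
    · rintro _ ⟨x, hx, z, hz, rfl⟩
      obtain ⟨k, rfl⟩ := Subgroup.mem_zpowers_iff.1 hz
      rcases Int.even_or_odd k with hk | hk
      · left
        obtain ⟨m, rfl⟩ := hk
        have : n ^ (m + m) = 1 := by
          rw [← two_mul, zpow_mul]
          have h2 : n ^ (2 : ℤ) = 1 := by
            rw [zpow_ofNat, pow_two, hn]
          rw [h2, one_zpow]
        show x * n ^ (m + m) ∈ X
        rw [this, mul_one]
        exact hx
      · right
        obtain ⟨m, rfl⟩ := hk
        have : n ^ (2 * m + 1) = n := by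
          rw [zpow_add, zpow_mul, zpow_one]
          have h2 : n ^ (2 : ℤ) = 1 := by
            rw [zpow_ofNat, pow_two, hn]
          rw [h2, one_zpow, one_mul]
        show x * n ^ (2 * m + 1) * n ∈ X
        rw [this, mul_assoc, hn, mul_one]
        exact hx
    · intro a b _ _ ha hb
      rcases ha with ha | ha <;> rcases hb with hb | hb
      · exact Or.inl (mul_mem ha hb)
      · right; rw [mul_assoc]; exact mul_mem ha hb
      · right
        have h2 : a * b * n = a * n * (n * b * n⁻¹) := by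
          rw [hni]
          calc a * b * n = a * 1 * b * n := by group
            _ = a * (n * n) * b * n := by rw [hn]
            _ = _ := by group
        rw [h2]
        exact mul_mem ha (hN b hb)
      · left
        have h2 : a * b = (a * n) * (n * (b * n) * n⁻¹) := by
          rw [hni]
          calc a * b = a * 1 * b * 1 := by group
            _ = a * (n * n) * b * (n * n) := by rw [hn]
            _ = _ := by group
        rw [h2]
        exact mul_mem ha (hN _ hb)
    · intro a _ ha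
      rcases ha with ha | ha
      · exact Or.inl (inv_mem ha)
      · right
        have h2 : a⁻¹ * n = n * (a * n)⁻¹ * n⁻¹ := by
          rw [hni]
          calc a⁻¹ * n = (n * n⁻¹) * a⁻¹ * n := by group
            _ = _ := by group
        rw [h2]
        exact hN _ (inv_mem ha)
  have h1 : X.relIndex (X ⊔ Subgroup.zpowers n) = 2 := by
    rw [Subgroup.relIndex_eq_two_iff]
    refine ⟨n, hn', fun b hb => ?_⟩
    rcases key b hb with h2 | h2
    · refine Or.inr ⟨h2, fun h3 => hX ?_⟩
      have h4 := mul_mem (inv_mem h2) h3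
      rwa [inv_mul_cancel_left] at h4
    · refine Or.inl ⟨h2, fun h3 => hX ?_⟩
      have h4 := mul_mem (inv_mem h3) h2
      rwa [inv_mul_cancel_left] at h4
  have h2 := Subgroup.relIndex_mul_relIndex (⊥ : Subgroup Y) X (X ⊔ Subgroup.zpowers n) bot_le le_sup_left
  rw [Subgroup.relIndex_bot_left, Subgroup.relIndex_bot_left, h1] at h2
  rw [← h2, mul_comm]

end Cfsg.Agent.R2.H27S.Conj
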