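import Mathlib
import Cfsg.Agent.R2.H27S.Wel
import Cfsg.Agent.R2.H27S.Conj
import Cfsg.Agent.ChevalleyStructure.StEmbed
import Cfsg.Agent.S1079
import Cfsg.Agent.S1054
import Cfsg.Agent.S1077

/-!
# Box S1 of S5934: `E₆(2).2`
-/

set_option autoImplicit false
set_option linter.unusedSectionVars false
set_option maxRecDepth 20000

namespace Cfsg.Agent.R2.H27S.BoxOne

open CoxeterSystem Cfsg.Agent.ChevalleyStructure.CoxeterGeom Cfsg.Agent.Tits.Roots Cfsg.Agent.Tits.Core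
  Cfsg.Agent.Nodes.Reps Cfsg.Agent.Nodes.BNOf Cfsg.Agent.Nodes.StabComb Cfsg.Agent.Nodes.Bruhat
  Cfsg.Agent.Nodes.OppDec Cfsg.Agent.Nodes.LeviDec Cfsg.Agent.Nodes.SubComb Cfsg.Agent.Nodes.Coroot
open Cfsg.Lie Cfsg.Agent.ChevalleyStructure Cfsg.Agent.ChevalleyStructure.Elts Cfsg.Agent.Nodes.RGDChev
  Cfsg.Agent.ChevalleyStructure.StBasic Cfsg.Agent.ChevalleyStructure.StTheta Cfsg.Agent.ChevalleyStructure.StEmbed
  Cfsg.Agent.ChevalleyStructure.CoxeterGeomTypes Cfsg.Agent.KFacts.RgdChevCoord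
open Cfsg.Agent.H904.E7Lat Cfsg.Agent.H904.E7Form Cfsg.Agent.H904.E7Main
open Cfsg.Agent.R2.H27 (G7 BoxS1)
open Cfsg.Agent.R2.H27S.ESeven Cfsg.Agent.R2.H27S.FTwo Cfsg.Agent.R2.H27S.Wel Cfsg.Agent.R2.H27S.Tab
  Cfsg.Agent.R2.H27S.Conj Cfsg.Agent.H129.FE

theorem inE6 : InList chevE6 := by simp

theorem nroots6 : chevE6.nroots = 72 := by decide +kernel

theorem lt67 : ∀ r < 72, ι67 r < 126 := by decide +kernel

/-- `E₆(2) → E₇(2)` -/
theorem exists_e6 : ∃ f : ↥(chevE6.group F2) →* G7, Function.Injective f ∧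
    ∀ r < 72, f (xg F2 inE6 r 1) = xe (ι67 r) := by
  obtain ⟨θ6, hs6, hk6, he6⟩ := Cfsg.Agent.S1077.result (K := F2) chevE6 (by simp)
  have hsimp := (Cfsg.Agent.S1054.result (F := F2) chevE6 (by simp)).1
  have hc : Nat.card (Subgroup.center (chevE6.SteinbergGroup F2)) = 1 := by
    have h := Cfsg.Agent.S1079.result hF (chevE6, 3) (by simp)
    simpa using h
  have hinj : Function.Injective θ6 := by
    rw [← MonoidHom.ker_eq_bot_iff, hk6]
    exact (Subgroup.card_eq_one).1 hc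
  let e6 : chevE6.SteinbergGroup F2 ≃* ↥(chevE6.group F2) := MulEquiv.ofBijective θ6 ⟨hinj, hs6⟩
  have h6 : ∀ r < 72, e6 (chevE6.stGen F2 r 1) = xg F2 inE6 r 1 := by
    intro r hr
    apply Subtype.ext
    apply Units.ext
    exact he6 r 1 (by rw [nroots6]; exact hr)
  set f : ↥(chevE6.group F2) →* G7 := ((theta hp7.inList F2).comp (hom emb67 F2)).comp e6.symm.toMonoidHom with hf
  have h7 : ∀ r < 72, f (xg F2 inE6 r 1) = xe (ι67 r) := by
    intro r hr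
    rw [hf, ← h6 r hr]
    show theta hp7.inList F2 (hom emb67 F2 (e6.symm (e6 (chevE6.stGen F2 r 1)))) = _
    rw [MulEquiv.symm_apply_apply, hom_stGen emb67 (by rw [nroots6]; exact hr), theta_ev]
  refine ⟨f, ?_, h7⟩
  have hn : (f.ker).Normal := inferInstance
  rcases hn.eq_bot_or_eq_top with h | h
  · exact (MonoidHom.ker_eq_bot_iff f).1 h
  · exfalso
    have h1 : xg F2 inE6 0 1 ∈ f.ker := by rw [h]; exact Subgroup.mem_top _
    rw [MonoidHom.mem_ker, h7 0 (by norm_num)] at h1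
    exact xe_ne_one (lt67 0 (by norm_num)) h1

/-- the roots of `E₆` -/
def l67' : List ℕ := (List.range 72).map ι67

theorem mem_l67' {r : ℕ} : r ∈ l67' ↔ ∃ s < 72, ι67 s = r := by
  simp [l67']

theorem range_eq {f : ↥(chevE6.group F2) →* G7} (h : ∀ r < 72, f (xg F2 inE6 r 1) = xe (ι67 r)) :
    f.range = GS F2 l67' := by
  apply le_antisymm
  · have h1 : chevE6.group F2 ≤ ((GS F2 l67').comap f).map (chevE6.group F2).subtype := by
      rw [group_le_iff inE6]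
      intro r hr t
      rw [nroots6] at hr
      refine ⟨xg F2 inE6 r t, ?_, rfl⟩
      show f (xg F2 inE6 r t) ∈ GS F2 l67'
      rcases two_elts t with rfl | rfl
      · have h2 : xg F2 inE6 r 0 = 1 := Subtype.ext (xG_zero inE6 r)
        rw [h2, map_one]
        exact one_mem _
      · rw [h r hr]
        exact X_le_GS F2 (mem_l67'.2 ⟨r, hr, rfl⟩) (xe_mem (lt67 r hr))
    rintro _ ⟨x, rfl⟩
    obtain ⟨y, hy, hyx⟩ := h1 x.2
    rw [Subtype.ext hyx] at hy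
    exact hy
  · refine GS_le F2 fun r hr => ?_
    obtain ⟨s, hs, rfl⟩ := mem_l67'.1 hr
    intro u hu
    rcases (mem_X7 (lt67 s hs)).1 hu with rfl | rfl
    · exact one_mem _
    · exact ⟨_, h s hs⟩

theorem last_zero : ∀ s < 72, rv (ι67 s) 6 = 0 := by decide +kernel

theorem of_last_zero : ∀ r < 126, rv r 6 = 0 → ∃ s ∈ List.range 72, ι67 s = r := by decide +kernel

/-- the Levi subgroup of type `E₆` -/
theorem GS_eq_LJ : GS F2 l67' = LJ cs7 h7 (T7 F2) (X7 F2) {i | i ≠ 6} := by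
  unfold LJ
  rw [T_bot, bot_sup_eq]
  apply le_antisymm
  · refine GS_le F2 fun r hr => ?_
    obtain ⟨s, hs, rfl⟩ := mem_l67'.1 hr
    refine RGD.le_Sup ⟨isRoot_rv (lt67 s hs), fun k hk => ?_⟩
    have h1 : k = 6 := by
      by_contra h2
      exact hk h2
    rw [h1]
    exact last_zero s hs
  · refine RGD.Sup_le fun x hx => ?_
    obtain ⟨r, hr, rfl⟩ := (isRoot_iff7 x).1 hx.1
    obtain ⟨s, hs, h1⟩ := of_last_zero r hr (hx.2 6 (by simp))
    exact X_le_GS F2 (mem_l67'.2 ⟨s, List.mem_range.1 hs, h1⟩)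

/-- the longest element -/
def w0L : List ℕ := [6, 5, 4, 3, 2, 1, 3, 4, 5, 6, 0, 2, 3, 4, 5, 1, 3, 4, 2, 3, 0, 2, 1, 3, 4, 5, 6, 0, 2, 3, 4, 5, 1,
  3, 4, 2, 3, 0, 2, 1, 3, 4, 5, 1, 3, 4, 2, 3, 0, 2, 1, 3, 4, 2, 3, 0, 2, 1, 3, 0, 2, 1, 0]

theorem w0L_act : ∀ r < 126, act w0L r = chevE7.neg r := by decide +kernel

theorem neg_mem : ∀ s < 72, ∃ t ∈ List.range 72, ι67 t = chevE7.neg (ι67 s) := by decide +kernel

theorem neg_neg7 : ∀ r < 126, chevE7.neg (chevE7.neg r) = r := by decide +kernel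

/-- the element inducing `-1` -/
theorem exists_n : ∃ (w : W7) (n : G7), Rp cs7 (R7 F2).nsys w n ∧ (∀ r < 126, rep cs7 h7 w (rv r) = rv (chevE7.neg r)) ∧
    (∀ r < 126, n * xe r * n⁻¹ = xe (chevE7.neg r)) ∧ n * n = 1 := by
  obtain ⟨w, n, h1, h2, h3⟩ := exists_rep w0L (by decide)
  have h4 : ∀ r < 126, rep cs7 h7 w (rv r) = rv (chevE7.neg r) := fun r hr => by rw [h2 r hr, w0L_act r hr]
  refine ⟨w, n, h1, h4, fun r hr => by rw [h3 r hr, w0L_act r hr], ?_⟩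
  have h5 : w * w = 1 := by
    apply eq_one_of_act
    intro r hr
    rw [rep_mul_apply, h4 r hr, h4 _ (neg_lt7 r hr), neg_neg7 r hr]
  have h6 := h1.mul h1
  rw [h5] at h6
  have h7 := h6.mem_of_one
  rw [T_bot] at h7
  exact Subgroup.mem_bot.1 h7

theorem simple6 : rv (chevE7.simple 6) 6 = 1 := by decide +kernel

theorem n_not_mem {w : W7} {n : G7} (hn : Rp cs7 (R7 F2).nsys w n)
    (hw : ∀ r < 126, rep cs7 h7 w (rv r) = rv (chevE7.neg r)) : n ∉ LJ cs7 h7 (T7 F2) (X7 F2) {i | i ≠ 6} := by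
  intro h
  have h0 : w ∈ WJ cs7 ({i | i ≠ 6} : Set (Fin 7)) := by
    have h1 := LJ_le_PJ h
    exact (cell_mem_PJ_iff (R7 F2) (cell_of_rp hn)).1 h1
  have h1 : sr (6 : Fin 7) ∈ NotJ cs7 h7 ({i | i ≠ 6} : Set (Fin 7)) := sr_mem_NotJ (by simp)
  have h2 := NotJ.act h0 h1
  have h3 := h2.2.1
  have h4 : rep cs7 h7 w (sr (6 : Fin 7)) = - sr (6 : Fin 7) := by
    rw [sr_eq, hw _ (simple_lt7 6), rv_neg (simple_lt7 6)]
  rw [h4] at h3
  have h5 := h3 6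
  rw [Pi.zero_apply, Pi.neg_apply, sr_self] at h5
  norm_num at h5

/-- **the Levi subgroup `E₆(2)`** -/
theorem exists_levi : ∃ φ : ↥(chevE6.group F2) →* G7, Function.Injective φ ∧
    φ.range = LJ cs7 h7 (T7 F2) (X7 F2) {i | i ≠ 6} := by
  obtain ⟨f, h1, h2⟩ := exists_e6
  exact ⟨f, h1, by rw [range_eq h2, GS_eq_LJ]⟩

theorem conj_GS {n : G7} (hn : ∀ r < 126, n * xe r * n⁻¹ = xe (chevE7.neg r)) {x : G7} (hx : x ∈ GS F2 l67') :
    n * x * n⁻¹ ∈ GS F2 l67' := by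
  refine conj_mem_GS hn (fun r hr => ?_) hx
  obtain ⟨s, hs, rfl⟩ := mem_l67'.1 hr
  obtain ⟨t, ht, h3⟩ := neg_mem s hs
  exact ⟨lt67 s hs, neg_lt7 _ (lt67 s hs), mem_l67'.2 ⟨t, List.mem_range.1 ht, h3⟩⟩

/-- **Box S1** -/
theorem boxS1 : BoxS1 := by
  obtain ⟨f, h1, h2⟩ := exists_e6
  obtain ⟨w, n, h3, h4, h5, h6⟩ := exists_n
  have h7 := range_eq h2
  have h8 : n ∉ f.range := by
    rw [h7, GS_eq_LJ]
    exact n_not_mem h3 h4
  have h10 : ∀ x ∈ f.range, n * x * n⁻¹ ∈ f.range := by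
    rw [h7]
    intro x hx
    exact conj_GS h5 hx
  have h9 := card_sup_zpowers (Y := G7) (X := f.range) h6 h8 h10
  refine ⟨f.range, f.range ⊔ Subgroup.zpowers n, ?_, ?_, ?_, ?_⟩
  · exact ⟨(MonoidHom.ofInjective h1).symm⟩
  · exact le_sup_left
  · exact h9.2
  · exact h9.1

end Cfsg.Agent.R2.H27S.BoxOne
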