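import Cfsg.Agent.R2.H27S.Cart

/-!
# Table `AFive` (S5934, box S)
-/

set_option autoImplicit false
set_option maxRecDepth 20000

namespace Cfsg.Agent.R2.H27S.TabAFive

open Cfsg.Lie Cfsg.Agent.R2.H27S.Tab Cfsg.Agent.R2.H27S.ESeven Cfsg.Agent.R2.H27S.Cart

/-- base -/
def bAFive : Fin 5 → ℕ := ![78, 69, 66, 64, 63]

/-- positive roots -/
def pcAFive : List (ℕ × (Fin 5 → ℤ)) := [(63, ![0, 0, 0, 0, 1]),
  (64, ![0, 0, 0, 1, 0]),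
  (65, ![0, 0, 0, 1, 1]),
  (66, ![0, 0, 1, 0, 0]),
  (67, ![0, 0, 1, 1, 0]),
  (68, ![0, 0, 1, 1, 1]),
  (69, ![0, 1, 0, 0, 0]),
  (70, ![0, 1, 1, 0, 0]),
  (71, ![0, 1, 1, 1, 0]),
  (72, ![0, 1, 1, 1, 1]),
  (78, ![1, 0, 0, 0, 0]),
  (79, ![1, 1, 0, 0, 0]),
  (80, ![1, 1, 1, 0, 0]),
  (81, ![1, 1, 1, 1, 0]),
  (82, ![1, 1, 1, 1, 1])]

/-- functionals -/
def flAFive : List ((Fin 7 → ℤ) × ℤ) := [(![-2, 0, -2, 0, 0, 0, 0], 0)]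

/-- left inverse -/
def liAFive : Fin 5 → Fin 7 → ℤ := ![![0, 1, 0, 0, 0, 0, 0], ![0, 0, 0, 1, 0, 0, 0], ![0, 0, 0, 0, 1, 0, 0], ![0, 0, 0, 0, 0, 1, 0], ![0, 0, 0, 0, 0, 0, 1]]

theorem tab : Tab (cA 5) bAFive pcAFive flAFive liAFive 1 where
  blt := by decide +kernel
  car := by decide +kernel
  D0 := by decide +kernel
  linv := by decide +kernel
  pc1 := by decide +kernel
  fl := by decide +kernel
  com := by decide +kernel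
  nd := by decide +kernel

end Cfsg.Agent.R2.H27S.TabAFive
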