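import Cfsg.Agent.R2.H27S.Cart

/-!
# Table `AOne` (S5934, box S)
-/

set_option autoImplicit false
set_option maxRecDepth 20000

namespace Cfsg.Agent.R2.H27S.TabAOne

open Cfsg.Lie Cfsg.Agent.R2.H27S.Tab Cfsg.Agent.R2.H27S.ESeven Cfsg.Agent.R2.H27S.Cart

/-- base -/
def bAOne : Fin 1 → ℕ := ![125]

/-- positive roots -/
def pcAOne : List (ℕ × (Fin 1 → ℤ)) := [(125, ![1])]

/-- functionals -/
def flAOne : List ((Fin 7 → ℤ) × ℤ) := [(![-2, -1, -2, 0, 2, 2, 2], 0), (![-2, -2, -2, 1, 2, 2, 0], 0)]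

/-- left inverse -/
def liAOne : Fin 1 → Fin 7 → ℤ := ![![2, 2, 3, 4, 3, 2, 1]]

theorem tab : Tab (cO 1) bAOne pcAOne flAOne liAOne 47 where
  blt := by decide +kernel
  car := by decide +kernel
  D0 := by decide +kernel
  linv := by decide +kernel
  pc1 := by decide +kernel
  fl := by decide +kernel
  com := by decide +kernel
  nd := by decide +kernel

end Cfsg.Agent.R2.H27S.TabAOne
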