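import Cfsg.Agent.R2.H27S.Cart

/-!
# Table `ASeven` (S5934, box S)
-/

set_option autoImplicit false
set_option maxRecDepth 20000

namespace Cfsg.Agent.R2.H27S.TabASeven

open Cfsg.Lie Cfsg.Agent.R2.H27S.Tab Cfsg.Agent.R2.H27S.ESeven Cfsg.Agent.R2.H27S.Cart

/-- base -/
def bASeven : Fin 7 → ℕ := ![0, 93, 73, 69, 66, 64, 63]

/-- positive roots -/
def pcASeven : List (ℕ × (Fin 7 → ℤ)) := [(0, ![1, 0, 0, 0, 0, 0, 0]),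
  (1, ![1, 1, 0, 0, 0, 0, 0]),
  (2, ![1, 1, 1, 0, 0, 0, 0]),
  (3, ![1, 1, 1, 1, 0, 0, 0]),
  (4, ![1, 1, 1, 1, 1, 0, 0]),
  (5, ![1, 1, 1, 1, 1, 1, 0]),
  (6, ![1, 1, 1, 1, 1, 1, 1]),
  (63, ![0, 0, 0, 0, 0, 0, 1]),
  (64, ![0, 0, 0, 0, 0, 1, 0]),
  (65, ![0, 0, 0, 0, 0, 1, 1]),
  (66, ![0, 0, 0, 0, 1, 0, 0]),
  (67, ![0, 0, 0, 0, 1, 1, 0]),
  (68, ![0, 0, 0, 0, 1, 1, 1]),
  (69, ![0, 0, 0, 1, 0, 0, 0]),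
  (70, ![0, 0, 0, 1, 1, 0, 0]),
  (71, ![0, 0, 0, 1, 1, 1, 0]),
  (72, ![0, 0, 0, 1, 1, 1, 1]),
  (73, ![0, 0, 1, 0, 0, 0, 0]),
  (74, ![0, 0, 1, 1, 0, 0, 0]),
  (75, ![0, 0, 1, 1, 1, 0, 0]),
  (76, ![0, 0, 1, 1, 1, 1, 0]),
  (77, ![0, 0, 1, 1, 1, 1, 1]),
  (93, ![0, 1, 0, 0, 0, 0, 0]),
  (94, ![0, 1, 1, 0, 0, 0, 0]),
  (95, ![0, 1, 1, 1, 0, 0, 0]),
  (96, ![0, 1, 1, 1, 1, 0, 0]),
  (97, ![0, 1, 1, 1, 1, 1, 0]),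
  (98, ![0, 1, 1, 1, 1, 1, 1])]

/-- functionals -/
def flASeven : List ((Fin 7 → ℤ) × ℤ) := [(![0, 1, 0, 0, 0, 0, 0], 2)]

/-- left inverse -/
def liASeven : Fin 7 → Fin 7 → ℤ := ![![0, -1, 0, 0, 0, 0, 0], ![2, -2, 0, 0, 0, 0, 0], ![0, -3, 2, 0, 0, 0, 0], ![0, -4, 0, 2, 0, 0, 0], ![0, -3, 0, 0, 2, 0, 0], ![0, -2, 0, 0, 0, 2, 0], ![0, -1, 0, 0, 0, 0, 2]]

theorem tab : Tab (cA 7) bASeven pcASeven flASeven liASeven 2 where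
  blt := by decide +kernel
  car := by decide +kernel
  D0 := by decide +kernel
  linv := by decide +kernel
  pc1 := by decide +kernel
  fl := by decide +kernel
  com := by decide +kernel
  nd := by decide +kernel

end Cfsg.Agent.R2.H27S.TabASeven
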