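import Cfsg.Agent.R2.H27S.Cart

/-!
# Table `ATwo` (S5934, box S)
-/

set_option autoImplicit false
set_option maxRecDepth 20000

namespace Cfsg.Agent.R2.H27S.TabATwo

open Cfsg.Lie Cfsg.Agent.R2.H27S.Tab Cfsg.Agent.R2.H27S.ESeven Cfsg.Agent.R2.H27S.Cart

/-- base -/
def bATwo : Fin 2 → ℕ := ![0, 93]

/-- positive roots -/
def pcATwo : List (ℕ × (Fin 2 → ℤ)) := [(0, ![1, 0]),
  (1, ![1, 1]),
  (93, ![0, 1])]

/-- functionals -/
def flATwo : List ((Fin 7 → ℤ) × ℤ) := [(![0, -1, -2, -1, 2, 2, 2], 0), (![0, -2, -2, 1, 0, 2, 2], 0)]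

/-- left inverse -/
def liATwo : Fin 2 → Fin 7 → ℤ := ![![0, -2, -3, -4, -3, -2, -1], ![43, -4, -6, -8, -6, -4, -2]]

theorem tab : Tab (cA 2) bATwo pcATwo flATwo liATwo 43 where
  blt := by decide +kernel
  car := by decide +kernel
  D0 := by decide +kernel
  linv := by decide +kernel
  pc1 := by decide +kernel
  fl := by decide +kernel
  com := by decide +kernel
  nd := by decide +kernel

end Cfsg.Agent.R2.H27S.TabATwo
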