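import Cfsg.Agent.R2.H27S.TabDSix
import Cfsg.Agent.R2.H27S.TabAOne
import Cfsg.Agent.R2.H27S.TabASeven
import Cfsg.Agent.R2.H27S.TabAFive
import Cfsg.Agent.R2.H27S.TabATwo
import Cfsg.Agent.R2.H27.Box

/-!
# Boxes S3, S4, S6 of S5934: `S₃ × Ω₁₂⁺(2)`, `L₈(2)`, `L₃(2) × L₆(2)`
-/

set_option autoImplicit false
set_option maxRecDepth 20000

namespace Cfsg.Agent.R2.H27S.BoxThree

open CoxeterSystem Cfsg.Agent.ChevalleyStructure.CoxeterGeom Cfsg.Agent.Tits.Roots Cfsg.Agent.Tits.Core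
open Cfsg.Lie Cfsg.Agent.R2.H27S.Tab Cfsg.Agent.R2.H27S.ESeven Cfsg.Agent.R2.H27S.Cart
open Cfsg.Agent.H904.E7Lat Cfsg.Agent.H904.E7Form Cfsg.Agent.R2.H27
open Cfsg.Agent.R2.H27S

abbrev F2 : Type := ZMod 2

theorem hF : Fintype.card F2 = 2 := rfl

theorem hN : Nat.card F2 = 2 := by rw [Nat.card_eq_fintype_card]; rfl

theorem T_bot : T7 F2 = ⊥ := T7_eq_bot F2 hF

theorem card_T : Nat.card (T7 F2) = 1 := by rw [T_bot, Subgroup.card_bot]

theorem sup_eq (L : List ℕ) : T7 F2 ⊔ GS F2 L = GS F2 L := by rw [T_bot, bot_sup_eq]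

/-! ### S3 -/

noncomputable instance : Fintype (Cfsg.Agent.Nodes.TypeD.M 4).Group := by
  have := Cfsg.Agent.Nodes.TypeD.finite_W (n := 4) (Cfsg.Agent.Nodes.TypeD.M 4).toCoxeterSystem
  exact Fintype.ofFinite _

theorem connD6 : ∀ s : Finset (Fin 6), s.Nonempty → s ≠ Finset.univ →
    ∃ a ∈ s, ∃ b, b ∉ s ∧ Cfsg.Agent.Nodes.TypeD.A 4 a b ≠ 0 := by decide +kernel

theorem simpleD6 : IsSimpleGroup ↥(GS F2 (rts TabDSix.pcDSix)) :=
  simple F2 TabDSix.tab (Cfsg.Agent.Nodes.TypeD.M 4).toCoxeterSystem (Cfsg.Agent.Nodes.TypeD.isCartan 4) hF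
    (conn_of_cartan (Cfsg.Agent.Nodes.TypeD.isCartan 4) connD6) (by decide +kernel)

theorem cardD6 : Nat.card ↥(GS F2 (rts TabDSix.pcDSix)) = oO12 := by
  have h1 := card_sum F2 TabDSix.tab (Cfsg.Agent.Nodes.TypeD.M 4).toCoxeterSystem
    (Cfsg.Agent.Nodes.TypeD.isCartan 4)
  rw [sup_eq, card_T, hN, Cfsg.Agent.H475.CoxD.sum_D] at h1
  rw [h1]
  decide +kernel

theorem finite_W_of {l : ℕ} {A' : Fin l → Fin l → ℤ} {b : Fin l → ℕ} {pc : List (ℕ × (Fin l → ℤ))}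
    {Fl : List ((Fin 7 → ℤ) × ℤ)} {Li : Fin l → Fin 7 → ℤ} {D : ℤ} (t : Tab A' b pc Fl Li D)
    {W' : Type*} [Group W'] {M' : CoxeterMatrix (Fin l)} (cs' : CoxeterSystem M' W') (h' : IsCartan M' A') :
    Finite W' := by
  obtain ⟨w, i, S⟩ := t.exists_subSys
  exact S.finite cs' h'

theorem cardA1 : Nat.card ↥(GS F2 (rts TabAOne.pcAOne)) = 6 := by
  have := finite_W_of TabAOne.tab (slM (cO 1) (cO_symm 1)).toCoxeterSystem (isCartan_O 1)
  have h1 := card_orth F2 TabAOne.tab (slM (cO 1) (cO_symm 1)).toCoxeterSystem (isCartan_O 1)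
    (fun i j hij => by simp [cO, hij])
  rw [sup_eq, card_T, hN] at h1
  rw [h1]
  decide +kernel

theorem centD6 : Subgroup.centralizer (GS F2 (rts TabDSix.pcDSix) : Set G7) = GS F2 (rts TabAOne.pcAOne) :=
  cent_eq F2 hF (by decide +kernel) (by decide +kernel) (by decide +kernel)

/-- **Box S3** -/
theorem boxS3 : BoxS3 := by
  refine ⟨GS F2 (rts TabDSix.pcDSix), simpleD6, cardD6, ?_⟩
  rw [centD6]
  exact cardA1

/-! ### S4 -/

theorem connA7 : ∀ s : Finset (Fin 7), s.Nonempty → s ≠ Finset.univ →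
    ∃ a ∈ s, ∃ b, b ∉ s ∧ cA 7 a b ≠ 0 := by decide +kernel

/-- **Box S4** -/
theorem boxS4 : BoxS4 := by
  have := finite_W_of TabASeven.tab (slM (cA 7) (cA_symm 7)).toCoxeterSystem (isCartan_A 7)
  refine ⟨GS F2 (rts TabASeven.pcASeven), simple F2 TabASeven.tab (slM (cA 7) (cA_symm 7)).toCoxeterSystem
    (isCartan_A 7) hF (conn_of_cartan (isCartan_A 7) connA7) (by decide +kernel), ?_⟩
  have h1 := card_chain F2 TabASeven.tab (slM (cA 7) (cA_symm 7)).toCoxeterSystem (isCartan_A 7) (by norm_num)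
    (fun i j => rfl)
  rw [sup_eq, card_T, hN] at h1
  rw [h1]
  decide +kernel

/-! ### S6 -/

theorem connA5 : ∀ s : Finset (Fin 5), s.Nonempty → s ≠ Finset.univ →
    ∃ a ∈ s, ∃ b, b ∉ s ∧ cA 5 a b ≠ 0 := by decide +kernel

theorem connA2 : ∀ s : Finset (Fin 2), s.Nonempty → s ≠ Finset.univ →
    ∃ a ∈ s, ∃ b, b ∉ s ∧ cA 2 a b ≠ 0 := by decide +kernel

theorem simpleA5 : IsSimpleGroup ↥(GS F2 (rts TabAFive.pcAFive)) :=
  simple F2 TabAFive.tab (slM (cA 5) (cA_symm 5)).toCoxeterSystem (isCartan_A 5) hF (conn_of_cartan (isCartan_A 5) connA5)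
    (by decide +kernel)

theorem simpleA2 : IsSimpleGroup ↥(GS F2 (rts TabATwo.pcATwo)) :=
  simple F2 TabATwo.tab (slM (cA 2) (cA_symm 2)).toCoxeterSystem (isCartan_A 2) hF (conn_of_cartan (isCartan_A 2) connA2)
    (by decide +kernel)

theorem cardA5 : Nat.card ↥(GS F2 (rts TabAFive.pcAFive)) = oL6 := by
  have := finite_W_of TabAFive.tab (slM (cA 5) (cA_symm 5)).toCoxeterSystem (isCartan_A 5)
  have h1 := card_chain F2 TabAFive.tab (slM (cA 5) (cA_symm 5)).toCoxeterSystem (isCartan_A 5) (by norm_num)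
    (fun i j => rfl)
  rw [sup_eq, card_T, hN] at h1
  rw [h1]
  decide +kernel

theorem cardA2 : Nat.card ↥(GS F2 (rts TabATwo.pcATwo)) = oL3 := by
  have := finite_W_of TabATwo.tab (slM (cA 2) (cA_symm 2)).toCoxeterSystem (isCartan_A 2)
  have h1 := card_chain F2 TabATwo.tab (slM (cA 2) (cA_symm 2)).toCoxeterSystem (isCartan_A 2) (by norm_num)
    (fun i j => rfl)
  rw [sup_eq, card_T, hN] at h1
  rw [h1]
  decide +kernel

theorem centA5 : Subgroup.centralizer (GS F2 (rts TabAFive.pcAFive) : Set G7) = GS F2 (rts TabATwo.pcATwo) :=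
  cent_eq F2 hF (by decide +kernel) (by decide +kernel) (by decide +kernel)

theorem centA2 : Subgroup.centralizer (GS F2 (rts TabATwo.pcATwo) : Set G7) = GS F2 (rts TabAFive.pcAFive) :=
  cent_eq F2 hF (by decide +kernel) (by decide +kernel) (by decide +kernel)

/-- **Box S6** -/
theorem boxS6 : BoxS6 :=
  ⟨GS F2 (rts TabAFive.pcAFive), GS F2 (rts TabATwo.pcATwo), simpleA5, cardA5, simpleA2, cardA2, centA5, centA2⟩

end Cfsg.Agent.R2.H27S.BoxThree
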