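import Mathlib
import Cfsg.Agent.R2.H27S.FTwo
import Cfsg.Agent.S1057
import Cfsg.Agent.S1077
import Cfsg.Agent.S1078
import Cfsg.Agent.S0283
import Cfsg.Agent.SmallSimple.S1000.PSLFacts

/-!
# `G₂(2)' ≤ E₇(2)` (S5934, box S12)
-/

set_option autoImplicit false
set_option linter.unusedSectionVars false

namespace Cfsg.Agent.R2.H27S.GTwo

open Cfsg.Lie Cfsg.Agent.ChevalleyStructure Cfsg.Agent.ChevalleyStructure.Elts
  Cfsg.Agent.ChevalleyStructure.StBasic Cfsg.Agent.ChevalleyStructure.StTheta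
open Cfsg.Agent.R2.H27 (G7)
open Cfsg.Agent.R2.H27S.ESeven Cfsg.Agent.R2.H27S.FTwo Cfsg.Agent.H129.FE
open scoped commutatorElement

/-- the roots of `E₇` belonging to the roots of `G₂` -/
def tG : Array (List ℕ) := #[[0], [1], [11, 9, 6], [27, 24, 22], [48, 40, 38], [32], [93], [77, 85, 87], [98, 101, 103],
  [114, 116, 119], [124], [125]]

/-- the roots of `E₇` belonging to the roots of `G₂` -/
def AG (r : ℕ) : List ℕ := tG.getD r []

theorem nrootsG : chevG2.nroots = 12 := by decide +kernel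

/-- right hand side of the commutator formula -/
def rG (r s : ℕ) : List ℕ := (chevG2.commTerms r s).flatMap fun c => if c.2.1 % 2 = 0 then [] else AG c.1

/-- the ordering -/
def ordG (r s : ℕ) : List ℕ := AG r ++ AG s ++ (chevG2.commTerms r s).flatMap fun c => AG c.1

/-- the check -/
def chkG (r s : ℕ) : Bool :=
  nf2 (posL (ordG r s)) 20 ((AG s).reverse ++ (AG r).reverse ++ AG s ++ AG r) == nf2 (posL (ordG r s)) 20 (rG r s)

theorem chkG_all : ∀ r < 12, ∀ s < 12, s ≠ r → s ≠ chevG2.neg r → chkG r s = true := by decide +kernel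

theorem exp_all : ∀ r < 12, ∀ s < 12, ∀ c ∈ chevG2.commTerms r s, c.2.2.1 ≠ 0 ∧ c.2.2.2 ≠ 0 := by decide +kernel

theorem sq_all : ∀ r < 12, nf2 (posL (AG r)) 20 (AG r ++ AG r) = [] := by decide +kernel

/-- the images of the generators -/
def genG (r : ℕ) (t : F2) : G7 := if t = 0 then 1 else wv (AG r)

theorem genG_zero (r : ℕ) : genG r 0 = 1 := if_pos rfl

theorem genG_one (r : ℕ) : genG r 1 = wv (AG r) := if_neg one_ne_zero

theorem genG_of_not_lt (r : ℕ) (t : F2) (h : ¬ r < chevG2.nroots) : genG r t = 1 := by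
  unfold genG
  split_ifs
  · rfl
  · have h1 : AG r = [] := by
      rw [nrootsG] at h
      rw [AG, Array.getD_eq_getD_getElem?, Array.getElem?_eq_none (Nat.not_lt.1 h)]
      rfl
    rw [h1]
    rfl

theorem wvA_mul {r : ℕ} (hr : r < 12) : wv (AG r) * wv (AG r) = 1 := by
  rw [← wv_append, ← wv_nf2 (posL (AG r)) 20, sq_all r hr]
  rfl

theorem genG_mul (r : ℕ) (t₁ t₂ : F2) (hr : r < chevG2.nroots) : genG r t₁ * genG r t₂ = genG r (t₁ + t₂) := by
  rw [nrootsG] at hr
  rcases two_elts t₁ with rfl | rfl <;> rcases two_elts t₂ with rfl | rfl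
  · rw [genG_zero, zero_add, genG_zero, mul_one]
  · rw [genG_zero, zero_add, one_mul]
  · rw [genG_zero, add_zero, mul_one]
  · have h1 : (1 : F2) + 1 = 0 := by decide
    rw [h1, genG_zero, genG_one, wvA_mul hr]

theorem prod_one {G : Type*} [Monoid G] {α : Type*} {l : List α} {f : α → G} (h : ∀ a ∈ l, f a = 1) : (l.map f).prod = 1 :=
  List.prod_eq_one fun x hx => by
    obtain ⟨a, ha, rfl⟩ := List.mem_map.1 hx
    exact h a ha

theorem wv_flatMap {α : Type*} (g : α → List ℕ) (l : List α) : wv (l.flatMap g) = (l.map fun a => wv (g a)).prod := by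
  induction l with
  | nil => rfl
  | cons a l ih => rw [List.flatMap_cons, wv_append, ih, List.map_cons, List.prod_cons]

theorem genG_comm (r s : ℕ) (t u : F2) (hr : r < chevG2.nroots) (hs : s < chevG2.nroots) (hne : s ≠ r)
    (hneg : s ≠ chevG2.neg r) : (genG s u)⁻¹ * (genG r t)⁻¹ * genG s u * genG r t =
      ((chevG2.commWord F2 r s t u).map fun p => genG p.1 p.2).prod := by
  rw [nrootsG] at hr hs
  rw [ChevalleyDatum.commWord, List.map_map]
  rcases two_elts t with rfl | rfl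
  · rw [genG_zero, inv_one, mul_one, mul_one, inv_mul_cancel]
    symm
    refine prod_one (G := G7) fun c hc => ?_
    have h1 := (exp_all r hr s hs c hc).1
    show genG c.1 ((c.2.1 : F2) * (-0) ^ c.2.2.1 * u ^ c.2.2.2) = 1
    rw [neg_zero, zero_pow h1, mul_zero, zero_mul, genG_zero]
  rcases two_elts u with rfl | rfl
  · rw [genG_zero, inv_one, one_mul, mul_one, inv_mul_cancel]
    symm
    refine prod_one (G := G7) fun c hc => ?_
    have h1 := (exp_all r hr s hs c hc).2
    show genG c.1 ((c.2.1 : F2) * (-1) ^ c.2.2.1 * 0 ^ c.2.2.2) = 1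
    rw [zero_pow h1, mul_zero, genG_zero]
  · have h := chkG_all r hr s hs hne hneg
    rw [chkG, beq_iff_eq] at h
    have h1 := wv_eq_of_nf _ h
    rw [wv_append, wv_append, wv_append, wv_reverse, wv_reverse] at h1
    rw [genG_one, genG_one, h1, rG, wv_flatMap]
    congr 1
    apply List.map_congr_left
    intro c _
    show _ = genG c.1 ((c.2.1 : F2) * (-1) ^ c.2.2.1 * 1 ^ c.2.2.2)
    have h2 : (-1 : F2) = 1 := by decide
    rw [h2, one_pow, one_pow, mul_one, mul_one]
    split_ifs with h3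
    · have h4 : (c.2.1 : F2) = 0 := by
        rw [ZMod.intCast_zmod_eq_zero_iff_dvd]
        exact Int.dvd_of_emod_eq_zero h3
      rw [h4, genG_zero]
      rfl
    · have h4 : (c.2.1 : F2) = 1 := by
        rcases two_elts (c.2.1 : F2) with h5 | h5
        · rw [ZMod.intCast_zmod_eq_zero_iff_dvd] at h5
          exact absurd (Int.emod_eq_zero_of_dvd h5) h3
        · exact h5
      rw [h4, genG_one]

theorem neg_ltG : ∀ r < 12, chevG2.neg r < 12 := by decide +kernel

theorem hW {r : ℕ} (hr : r < 12) : ((chevG2.hWord r (1 : F2)).map fun p => genG p.1 p.2).prod = 1 := by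
  have h1 : ((chevG2.hWord r (1 : F2)).map fun p => genG p.1 p.2).prod =
      genG r 1 * (genG (chevG2.neg r) (-1⁻¹) * (genG r 1 * (genG r (-1) * (genG (chevG2.neg r) (-(-1)⁻¹) *
      (genG r (-1) * 1))))) := rfl
  have h2 : (-(1 : F2)⁻¹) = 1 := by rw [inv_one]; decide
  have h3 : (-(-1 : F2)⁻¹) = 1 := by rw [inv_neg, inv_one, neg_neg]
  have h4 : (-1 : F2) = 1 := by decide
  rw [h1, h2, h3, h4, genG_one, genG_one, mul_one, ← mul_assoc (wv (AG r)) (wv (AG r)), wvA_mul hr, one_mul,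
    ← mul_assoc (wv (AG (chevG2.neg r))), wvA_mul (neg_ltG r hr), one_mul, wvA_mul hr]

theorem genG_h (r : ℕ) (t₁ t₂ : F2) (hr : r < chevG2.nroots) (h₁ : t₁ ≠ 0) (h₂ : t₂ ≠ 0) :
    ((chevG2.hWord r t₁).map fun p => genG p.1 p.2).prod * ((chevG2.hWord r t₂).map fun p => genG p.1 p.2).prod =
      ((chevG2.hWord r (t₁ * t₂)).map fun p => genG p.1 p.2).prod := by
  rw [nrootsG] at hr
  have e1 : t₁ = 1 := (two_elts t₁).resolve_left h₁
  have e2 : t₂ = 1 := (two_elts t₂).resolve_left h₂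
  subst e1 e2
  rw [mul_one, hW hr, mul_one]

/-- the homomorphism from the presented group -/
noncomputable def stG : chevG2.SteinbergGroup F2 →* G7 :=
  lift chevG2 genG genG_of_not_lt genG_mul (fun r s t u hr hs h1 h2 => genG_comm r s t u hr hs h1 h2)
    (fun r t₁ t₂ hr h₁ h₂ => genG_h r t₁ t₂ hr h₁ h₂)

theorem stG_stGen (r : ℕ) (t : F2) : stG (chevG2.stGen F2 r t) = genG r t := lift_stGen _ _ _ _ _ _ _ _

theorem inG2 : InList chevG2 := by simp

/-- **`G₂(2) → E₇(2)`** -/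
theorem exists_g2 : ∃ f : ↥(chevG2.group F2) →* G7, ∀ r < 12, f (xg F2 inG2 r 1) = wv (AG r) := by
  obtain ⟨θ, hs, hk, he⟩ := Cfsg.Agent.S1077.result (K := F2) chevG2 (by simp)
  have hinj : Function.Injective θ := by
    rw [← MonoidHom.ker_eq_bot_iff, hk]
    exact Cfsg.Agent.S1078.result (K := F2) chevG2 (by simp)
  let e : chevG2.SteinbergGroup F2 ≃* ↥(chevG2.group F2) := MulEquiv.ofBijective θ ⟨hinj, hs⟩
  have h6 : ∀ r < 12, e (chevG2.stGen F2 r 1) = xg F2 inG2 r 1 := by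
    intro r hr
    apply Subtype.ext
    apply Units.ext
    exact he r 1 (by rw [nrootsG]; exact hr)
  refine ⟨stG.comp e.symm.toMonoidHom, fun r hr => ?_⟩
  rw [← h6 r hr]
  show stG (e.symm (e (chevG2.stGen F2 r 1))) = _
  rw [MulEquiv.symm_apply_apply, stG_stGen, genG_one]

/-- the image is generated by the root elements -/
theorem range_le {f : ↥(chevG2.group F2) →* G7} (h : ∀ r < 12, f (xg F2 inG2 r 1) = wv (AG r)) {S : Subgroup G7}
    (hS : ∀ r < 12, wv (AG r) ∈ S) : f.range ≤ S := by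
  have h1 : chevG2.group F2 ≤ (S.comap f).map (chevG2.group F2).subtype := by
    rw [group_le_iff inG2]
    intro r hr t
    rw [nrootsG] at hr
    refine ⟨xg F2 inG2 r t, ?_, rfl⟩
    show f (xg F2 inG2 r t) ∈ S
    rcases two_elts t with rfl | rfl
    · have h2 : xg F2 inG2 r 0 = 1 := Subtype.ext (xG_zero inG2 r)
      rw [h2, map_one]
      exact one_mem _
    · rw [h r hr]
      exact hS r hr
  rintro _ ⟨x, rfl⟩
  obtain ⟨y, hy, hyx⟩ := h1 x.2
  rw [Subtype.ext hyx] at hy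
  exact hy

/-- sums of long roots -/
def lT : List (ℕ × ℕ × ℕ) := [(0, 1, 5), (1, 0, 6), (5, 0, 10), (6, 11, 1), (10, 11, 5), (11, 6, 10)]

theorem lT_ok : ∀ e ∈ lT, e.2.1 < 12 ∧ e.2.2 < 12 ∧
    nf2 id 20 (AG e.2.1 ++ AG e.2.2 ++ AG e.2.1 ++ AG e.2.2) = AG e.1 := by decide +kernel

theorem wv_single (r : ℕ) : wv [r] = xe r := by rw [wv_cons, wv_nil, mul_one]

/-- the long root elements are commutators -/
theorem long_mem {f : ↥(chevG2.group F2) →* G7} (h : ∀ r < 12, f (xg F2 inG2 r 1) = wv (AG r)) {r : ℕ}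
    (hr : r ∈ lT.map Prod.fst) : wv (AG r) ∈ (commutator ↥(chevG2.group F2)).map f := by
  obtain ⟨⟨_, s, t⟩, he, rfl⟩ := List.mem_map.1 hr
  obtain ⟨hs, ht, h1⟩ := lT_ok _ he
  change s < 12 at hs
  change t < 12 at ht
  refine ⟨⁅xg F2 inG2 s 1, xg F2 inG2 t 1⁆, ?_, ?_⟩
  · exact Subgroup.commutator_mem_commutator (Subgroup.mem_top _) (Subgroup.mem_top _)
  · have h2 : ∀ a b : G7, a * a = 1 → b * b = 1 → ⁅a, b⁆ = a * b * a * b := by
      intro a b ha hb
      have ha' : a⁻¹ = a := inv_eq_of_mul_eq_one_left ha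
      have hb' : b⁻¹ = b := inv_eq_of_mul_eq_one_left hb
      rw [commutatorElement_def, ha', hb']
    rw [map_commutatorElement, h s hs, h t ht, h2 _ _ (wvA_mul hs) (wvA_mul ht), ← wv_append, ← wv_append,
      ← wv_append, ← wv_nf2 id 20, h1]

theorem AG_eleven : AG 11 = [125] := rfl

theorem psu : ∃ (_ : IsSimpleGroup ↥(commutator ↥(chevG2.group F2))), Nat.card ↥(commutator ↥(chevG2.group F2)) = 6048 := by
  have : Fact (Nat.Prime 3) := ⟨by norm_num⟩
  have : Fintype (GaloisField 3 2) := Fintype.ofFinite _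
  have hK : Fintype.card (GaloisField 3 2) = 9 := by
    rw [← Nat.card_eq_fintype_card, GaloisField.card 3 2 (by norm_num)]
    norm_num
  obtain ⟨e⟩ := Cfsg.Agent.S1057.result (F := F2) (K := GaloisField 3 2) hF hK
  have h1 : IsSimpleGroup (Cfsg.PSU 3 (GaloisField 3 2) 3) :=
    Cfsg.Agent.S0283.result (q := 3) (by rw [hK]; norm_num) 3 (le_refl 3) (by norm_num)
  have h2 := Cfsg.Agent.SmallSimple.PSLFacts.card_psu_three_three (F := GaloisField 3 2) hK
  exact ⟨e.isSimpleGroup, by rw [Nat.card_congr e.toEquiv, h2]⟩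

theorem simple_map {G H : Type*} [Group G] [Group H] (f : G →* H) (D : Subgroup G) (h1 : IsSimpleGroup ↥D)
    (hz : ∃ z ∈ D, f z ≠ 1) : IsSimpleGroup ↥(D.map f) ∧ Nat.card ↥(D.map f) = Nat.card ↥D := by
  have hinj : Function.Injective (f.comp D.subtype) := by
    rw [← MonoidHom.ker_eq_bot_iff]
    rcases h1.eq_bot_or_eq_top_of_normal (f.comp D.subtype).ker inferInstance with h3 | h3
    · exact h3
    · exfalso
      obtain ⟨z, hz, hz1⟩ := hz
      have h4 : (⟨z, hz⟩ : D) ∈ (f.comp D.subtype).ker := by rw [h3]; exact Subgroup.mem_top _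
      rw [MonoidHom.mem_ker] at h4
      exact hz1 h4
  have h3 : (f.comp D.subtype).range = D.map f := by
    rw [MonoidHom.range_comp, Subgroup.range_subtype]
  have e : D ≃* ↥(D.map f) := (MonoidHom.ofInjective hinj).trans (MulEquiv.subgroupCongr h3)
  exact ⟨e.symm.isSimpleGroup, (Nat.card_congr e.toEquiv).symm⟩

/-- the group `G₂(2)'` in `E₇(2)` -/
theorem simple_card {f : ↥(chevG2.group F2) →* G7} (h : ∀ r < 12, f (xg F2 inG2 r 1) = wv (AG r)) :
    IsSimpleGroup ↥((commutator ↥(chevG2.group F2)).map f) ∧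
      Nat.card ↥((commutator ↥(chevG2.group F2)).map f) = 6048 := by
  obtain ⟨h1, h2⟩ := psu
  have h3 := simple_map f (commutator ↥(chevG2.group F2)) h1 (by
    obtain ⟨z, hz, hz1⟩ := long_mem h (r := 11) (by decide)
    refine ⟨z, hz, ?_⟩
    rw [hz1, AG_eleven, wv_single]
    exact xe_ne_one (by norm_num))
  exact ⟨h3.1, h3.2.trans h2⟩

end Cfsg.Agent.R2.H27S.GTwo
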