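import Mathlib
import Cfsg.Agent.R2.H27S.SpSix
import Cfsg.Agent.R2.H27S.GTwo
import Cfsg.Agent.R2.H27S.Tab

/-!
# Box S12 of S5934: `Sp₆(2) × U₃(3)`
-/

set_option autoImplicit false
set_option linter.unusedSectionVars false

namespace Cfsg.Agent.R2.H27S.BoxTwelve

open Cfsg.Lie Cfsg.Agent.ChevalleyStructure Cfsg.Agent.ChevalleyStructure.Elts
open Cfsg.Agent.R2.H27 (G7 BoxS12 oS6 oG2)
open Cfsg.Agent.H904.E7Form
open Cfsg.Agent.R2.H27S.ESeven Cfsg.Agent.R2.H27S.FTwo Cfsg.Agent.R2.H27S.SpSix Cfsg.Agent.R2.H27S.GTwo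
  Cfsg.Agent.R2.H27S.Tab Cfsg.Agent.H129.FE

/-- the words of the basic transvections -/
def tabW : List (ℕ × List {ij : Fin 6 × Fin 6 // ij.1 ≠ ij.2}) :=
  [(1, [⟨(0, 5), by decide⟩]), (2, [⟨(1, 4), by decide⟩]), (4, [⟨(2, 3), by decide⟩]), (8, [⟨(5, 0), by decide⟩]),
   (16, [⟨(4, 1), by decide⟩]), (32, [⟨(3, 2), by decide⟩]),
   (3, [⟨(0, 4), by decide⟩, ⟨(0, 5), by decide⟩, ⟨(1, 4), by decide⟩, ⟨(1, 5), by decide⟩]),
   (6, [⟨(1, 3), by decide⟩, ⟨(1, 4), by decide⟩, ⟨(2, 3), by decide⟩, ⟨(2, 4), by decide⟩])]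

theorem tabW_mat : ∀ e ∈ tabW, Matrix.reindex eq6 eq6 (Cfsg.sympTransvection 3 (vn e.1) (1 : F2)) =
    (e.2.map fun p => Matrix.transvection p.1.1 p.1.2 (1 : F2)).prod := by decide +kernel

theorem tabW_base : ∀ n ∈ base, ∃ e ∈ tabW, e.1 = n := by decide +kernel

/-- the roots -/
def rW (l : List {ij : Fin 6 × Fin 6 // ij.1 ≠ ij.2}) : List ℕ := l.map fun p => rt6 p.1.1 p.1.2

theorem chkW : ∀ e ∈ tabW, ∀ r < 12, nf2 (posL (rW e.2 ++ AG r)) 60 (rW e.2 ++ AG r) =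
    nf2 (posL (rW e.2 ++ AG r)) 60 (AG r ++ rW e.2) := by decide +kernel

theorem coe_prod (l : List {ij : Fin 6 × Fin 6 // ij.1 ≠ ij.2}) :
    (((l.map fun p => el p.1.1 p.1.2 p.2).prod : Matrix.SpecialLinearGroup (Fin 6) F2) : Matrix (Fin 6) (Fin 6) F2) =
      (l.map fun p => Matrix.transvection p.1.1 p.1.2 (1 : F2)).prod := by
  induction l with
  | nil => rfl
  | cons a l ih =>
    rw [List.map_cons, List.prod_cons, List.map_cons, List.prod_cons, Matrix.SpecialLinearGroup.coe_mul, ih]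
    rfl

theorem toSL_tv {e : ℕ × List {ij : Fin 6 × Fin 6 // ij.1 ≠ ij.2}} (he : e ∈ tabW) :
    toSL (tv (vn e.1)) = (e.2.map fun p => el p.1.1 p.1.2 p.2).prod := by
  apply Subtype.ext
  rw [coe_prod, ← tabW_mat e he]
  rfl

theorem map_tv {φ : Matrix.SpecialLinearGroup (Fin 6) F2 →* G7} (hφ : ∀ i j (h : i ≠ j), φ (el i j h) = xe (rt6 i j))
    {e : ℕ × List {ij : Fin 6 × Fin 6 // ij.1 ≠ ij.2}} (he : e ∈ tabW) :
    φ.comp toSL (tv (vn e.1)) = wv (rW e.2) := by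
  rw [MonoidHom.comp_apply, toSL_tv he, map_list_prod, List.map_map, wv, rW, List.map_map]
  congr 1
  apply List.map_congr_left
  intro p _
  exact hφ p.1.1 p.1.2 p.2

/-- the two groups commute -/
theorem commute_all {φ : Matrix.SpecialLinearGroup (Fin 6) F2 →* G7}
    (hφ : ∀ i j (h : i ≠ j), φ (el i j h) = xe (rt6 i j)) {g : ↥(chevG2.group F2) →* G7}
    (hg : ∀ r < 12, g (xg F2 inG2 r 1) = wv (AG r)) : (φ.comp toSL).range ≤ Subgroup.centralizer (g.range : Set G7) := by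
  have h1 : (Subgroup.centralizer (g.range : Set G7)).comap (φ.comp toSL) = ⊤ := by
    apply eq_top
    intro n hn
    obtain ⟨e, he, rfl⟩ := tabW_base n hn
    rw [Subgroup.mem_comap, map_tv hφ he]
    have h2 : g.range ≤ Subgroup.centralizer {wv (rW e.2)} := by
      refine range_le hg fun r hr => ?_
      rw [Subgroup.mem_centralizer_singleton_iff]
      exact ((commute_of_nf _ (chkW e he r hr)).eq).symm
    rw [Subgroup.mem_centralizer_iff]
    intro x hx
    exact Subgroup.mem_centralizer_singleton_iff.1 (h2 hx)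
  rintro _ ⟨x, rfl⟩
  have h2 : x ∈ (Subgroup.centralizer (g.range : Set G7)).comap (φ.comp toSL) := by rw [h1]; exact Subgroup.mem_top _
  exact h2

/-- the long roots -/
def lL : List ℕ := [82, 71, 66, 43, 54, 59, 0, 1, 32, 93, 124, 125]

theorem lL_ok : ∀ r ∈ lL, r < 126 ∧ chevE7.neg r ∈ lL := by decide +kernel

theorem lL_perp : ∀ r < 126, (r ∈ ([] : List ℕ) ↔ ∀ s ∈ lL, bf (rv r) (rv s) = 0) := by decide +kernel

theorem lL_mem : ∀ r ∈ lL, (∃ e ∈ tabW, rW e.2 = [r]) ∨ ∃ s ∈ lT.map Prod.fst, AG s = [r] := by decide +kernel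

theorem centralizer_GS {L : List ℕ} (hL : ∀ r ∈ L, r < 126) {z : G7} (h : ∀ r ∈ L, z * xe r = xe r * z) :
    z ∈ Subgroup.centralizer (GS F2 L : Set G7) := by
  have h1 : GS F2 L ≤ Subgroup.centralizer {z} := by
    refine GS_le F2 fun r hr => ?_
    intro u hu
    rw [Subgroup.mem_centralizer_singleton_iff]
    rcases (mem_X7 (hL r hr)).1 hu with rfl | rfl
    · rw [one_mul, mul_one]
    · exact (h r hr).symm
  rw [Subgroup.mem_centralizer_iff]
  intro u hu
  exact Subgroup.mem_centralizer_singleton_iff.1 (h1 hu)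

theorem GS_nil : GS F2 [] = ⊥ := by
  rw [eq_bot_iff]
  exact GS_le F2 fun r hr => absurd hr List.not_mem_nil

/-- **Box S12** -/
theorem boxS12 : BoxS12 := by
  obtain ⟨φ, hφ⟩ := exists_sl
  obtain ⟨g, hg⟩ := exists_g2
  have h1 := commute_all hφ hg
  have h2 := GTwo.simple_card hg
  have h3 := simple_map (φ.comp toSL) ⊤ (by
    exact (Subgroup.topEquiv (G := Sp)).isSimpleGroup) ⟨tv (vn 1), Subgroup.mem_top _, by
      have h4 := map_tv hφ (e := (1, [⟨(0, 5), by decide⟩])) (by simp [tabW])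
      rw [h4]
      have h5 : wv (rW [⟨((0 : Fin 6), (5 : Fin 6)), by decide⟩]) = xe 82 := wv_single 82
      rw [h5]
      exact xe_ne_one (by norm_num)⟩
  rw [← MonoidHom.range_eq_map] at h3
  have hle : (commutator ↥(chevG2.group F2)).map g ≤ g.range := by
    rintro _ ⟨x, _, rfl⟩
    exact ⟨x, rfl⟩
  refine ⟨(φ.comp toSL).range, (commutator ↥(chevG2.group F2)).map g, h3.1, ?_, h2.1, ?_, ?_, ?_⟩
  · rw [h3.2, Subgroup.card_top, cardSp]
    decide
  · rw [h2.2]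
    decide
  · exact hle.trans (Subgroup.le_centralizer_iff.1 h1)
  · rw [eq_bot_iff]
    rintro z ⟨hz1, hz2⟩
    have h4 : z ∈ Subgroup.centralizer (GS F2 lL : Set G7) := by
      refine centralizer_GS (fun r hr => (lL_ok r hr).1) fun r hr => ?_
      rcases lL_mem r hr with ⟨e, he, h5⟩ | ⟨s, hs, h5⟩
      · have h6 := map_tv hφ he
        rw [h5, wv_single] at h6
        exact (Subgroup.mem_centralizer_iff.1 hz1 (xe r) ⟨_, h6⟩).symm
      · have h6 := long_mem hg hs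
        rw [h5, wv_single] at h6
        exact (Subgroup.mem_centralizer_iff.1 hz2 (xe r) h6).symm
    rw [cent_eq F2 hF lL_ok (L' := []) (fun r hr => absurd hr List.not_mem_nil) lL_perp, GS_nil] at h4
    exact h4

end Cfsg.Agent.R2.H27S.BoxTwelve
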