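import Mathlib
import Cfsg.Agent.R2.H27S.Tab
import Cfsg.Agent.H475.CoxD

/-!
# Cartan matrices of the subsystems (S5934, box S)
-/

set_option autoImplicit false
set_option linter.unusedSectionVars false
set_option linter.dupNamespace false

namespace Cfsg.Agent.R2.H27S.Cart

open CoxeterSystem Cfsg.Agent.ChevalleyStructure.CoxeterGeom Cfsg.Agent.Tits.Roots Cfsg.Agent.Tits.Core
open Cfsg.Lie Cfsg.Agent.R2.H27S.Tab Cfsg.Agent.R2.H27S.ESeven Cfsg.Agent.H35.Poin

universe u

/-- the Coxeter matrix of a simply laced Cartan matrix -/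
def slM {l : ℕ} (A' : Fin l → Fin l → ℤ) (hs : ∀ i j, A' i j = A' j i) : CoxeterMatrix (Fin l) where
  M := Matrix.of fun i j => if i = j then 1 else if A' i j = 0 then 2 else 3
  isSymm := by
    ext i j
    simp only [Matrix.transpose_apply, Matrix.of_apply, eq_comm (a := i), hs i j]
  diagonal i := by simp
  off_diagonal i j hij := by
    simp only [Matrix.of_apply, if_neg hij]
    split_ifs <;> norm_num

theorem slM_apply {l : ℕ} (A' : Fin l → Fin l → ℤ) (hs : ∀ i j, A' i j = A' j i) (i j : Fin l) :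
    slM A' hs i j = if i = j then 1 else if A' i j = 0 then 2 else 3 := rfl

theorem slCartan {l : ℕ} (A' : Fin l → Fin l → ℤ) (hs : ∀ i j, A' i j = A' j i) (hd : ∀ i, A' i i = 2)
    (hv : ∀ i j, i ≠ j → A' i j = 0 ∨ A' i j = -1) : IsCartan (slM A' hs) A' where
  diag := hd
  rel i j hij := by
    rw [slM_apply, if_neg hij, ← hs i j]
    rcases hv i j hij with h | h
    · left
      rw [if_pos h]
      exact ⟨rfl, h, h⟩
    · right; left
      rw [if_neg (by rw [h]; norm_num)]
      exact ⟨rfl, h, h⟩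

theorem conn_of_fin {l : ℕ} {M' : CoxeterMatrix (Fin l)}
    (h : ∀ s : Finset (Fin l), s.Nonempty → s ≠ Finset.univ → ∃ a ∈ s, ∃ b, b ∉ s ∧ M' a b ≠ 2) :
    ∀ J : Set (Fin l), J.Nonempty → J ≠ Set.univ → ∃ a ∈ J, ∃ b, b ∉ J ∧ M' a b ≠ 2 := by
  classical
  intro J h1 h2
  obtain ⟨a, ha, b, hb, hab⟩ := h (Finset.univ.filter (· ∈ J)) (by
    obtain ⟨x, hx⟩ := h1
    exact ⟨x, by simpa using hx⟩) (by
    intro h3
    apply h2
    ext x
    have : x ∈ Finset.univ.filter (· ∈ J) := by rw [h3]; exact Finset.mem_univ x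
    simpa using this)
  exact ⟨a, by simpa using ha, b, by simpa using hb, hab⟩

theorem conn_of_cartan {l : ℕ} {M' : CoxeterMatrix (Fin l)} {A' : Fin l → Fin l → ℤ} (h' : IsCartan M' A')
    (h : ∀ s : Finset (Fin l), s.Nonempty → s ≠ Finset.univ → ∃ a ∈ s, ∃ b, b ∉ s ∧ A' a b ≠ 0) :
    ∀ J : Set (Fin l), J.Nonempty → J ≠ Set.univ → ∃ a ∈ J, ∃ b, b ∉ J ∧ M' a b ≠ 2 := by
  refine conn_of_fin fun s h1 h2 => ?_
  obtain ⟨a, ha, b, hb, hab⟩ := h s h1 h2
  refine ⟨a, ha, b, hb, fun h3 => hab ?_⟩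
  rcases h'.rel a b (fun e => hb (e ▸ ha)) with h4 | h4 | h4 | h4
  · exact h4.2.1
  · omega
  · omega
  · omega

/-- the Cartan matrix of type `A_l` -/
def cA (l : ℕ) (i j : Fin l) : ℤ := if i = j then 2 else if (i : ℕ) + 1 = j ∨ (j : ℕ) + 1 = i then -1 else 0

/-- the Cartan matrix of type `A_1^l` -/
def cO (l : ℕ) (i j : Fin l) : ℤ := if i = j then 2 else 0

theorem cA_symm (l : ℕ) (i j : Fin l) : cA l i j = cA l j i := by
  unfold cA
  by_cases h : i = j
  · rw [if_pos h, if_pos h.symm]
  · rw [if_neg h, if_neg (Ne.symm h)]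
    simp only [or_comm]

theorem cO_symm (l : ℕ) (i j : Fin l) : cO l i j = cO l j i := by
  unfold cO
  by_cases h : i = j
  · rw [if_pos h, if_pos h.symm]
  · rw [if_neg h, if_neg (Ne.symm h)]

theorem isCartan_A (l : ℕ) : IsCartan (slM (cA l) (cA_symm l)) (cA l) :=
  slCartan _ _ (fun i => by simp [cA]) fun i j hij => by
    unfold cA
    rw [if_neg hij]
    split_ifs <;> simp

theorem isCartan_O (l : ℕ) : IsCartan (slM (cO l) (cO_symm l)) (cO l) :=
  slCartan _ _ (fun i => by simp [cO]) fun i j hij => by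
    unfold cO
    rw [if_neg hij]
    simp

/-! ### Orders -/

section Ord

variable (K : Type u) [Field K] [Finite K] [CharP K 2]
variable {l : ℕ} {A' : Fin l → Fin l → ℤ} {b : Fin l → ℕ} {pc : List (ℕ × (Fin l → ℤ))}
  {Fl : List ((Fin 7 → ℤ) × ℤ)} {Li : Fin l → Fin 7 → ℤ} {D : ℤ} (t : Tab A' b pc Fl Li D)
  {W' : Type*} [Group W'] {M' : CoxeterMatrix (Fin l)} (cs' : CoxeterSystem M' W') (h' : IsCartan M' A')

include t cs' h'

/-- type `A_l` -/
theorem card_chain [Finite W'] (hl : 0 < l) (hA : ∀ i j : Fin l, A' i j =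
      if i = j then 2 else if (i : ℕ) + 1 = j ∨ (j : ℕ) + 1 = i then -1 else 0) :
    Nat.card ↥(T7 K ⊔ GS K (rts pc)) = Nat.card (T7 K) * Nat.card K ^ pc.length *
      ∏ i ∈ Finset.range l, ∑ t ∈ Finset.range (i + 2), Nat.card K ^ t := by
  let c : ℕ → Fin l := fun t => if h : t < l then ⟨t, h⟩ else ⟨0, hl⟩
  have hc : ∀ t, t < l → (c t : ℕ) = t := fun t ht => by simp [c, ht]
  have h1 := card_A K t cs' h' [(c, l)] (by
    intro k hk
    have hk0 : k = 0 := by simpa using hk
    subst hk0
    have e : (Set.univ \ {j | ∃ e ∈ List.take 0 [(c, l)], ∃ t < e.2, e.1 t = j} : Set (Fin l)) = Set.univ := by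
      ext j; simp
    rw [e]
    refine ⟨fun t _ => Set.mem_univ _, ?_, ?_, ?_, ?_⟩
    · intro t ht
      have ht' : t + 1 < l := ht
      have e1 := hc t (by omega)
      have e2 := hc (t + 1) ht'
      show A' (c t) (c (t + 1)) = -1 ∧ A' (c (t + 1)) (c t) = -1
      rw [hA, hA, if_neg (by intro h; have := congrArg Fin.val h; omega), if_pos (by omega),
        if_neg (by intro h; have := congrArg Fin.val h; omega), if_pos (by omega)]
      exact ⟨rfl, rfl⟩
    · intro s t hst ht
      have ht' : t < l := ht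
      have e1 := hc s (by omega)
      have e2 := hc t ht'
      show A' (c s) (c t) = 0 ∧ A' (c t) (c s) = 0
      rw [hA, hA, if_neg (by intro h; have := congrArg Fin.val h; omega), if_neg (by omega),
        if_neg (by intro h; have := congrArg Fin.val h; omega), if_neg (by omega)]
      exact ⟨rfl, rfl⟩
    · intro j _ hj t ht
      exact absurd (Fin.ext (hc j j.2)) (hj j j.2)
    · intro s hs t ht e
      have e1 := hc s hs
      have e2 := hc t ht
      have e3 : (c s : ℕ) = c t := congrArg Fin.val e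
      omega) (by
    intro j
    exact ⟨_, List.mem_singleton.2 rfl, j, j.2, Fin.ext (hc j j.2)⟩)
  rw [h1]
  simp

/-- type `A_1^l` -/
theorem card_orth [Finite W'] (hA : ∀ i j : Fin l, i ≠ j → A' i j = 0) :
    Nat.card ↥(T7 K ⊔ GS K (rts pc)) = Nat.card (T7 K) * Nat.card K ^ pc.length * (1 + Nat.card K) ^ l := by
  have h1 := card_A K t cs' h' ((List.finRange l).map fun i => ((fun _ => i), 1)) (by
    intro k hk
    rw [List.length_map, List.length_finRange] at hk
    refine ⟨?_, ?_, ?_, ?_, ?_⟩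
    · intro t _
      refine ⟨Set.mem_univ _, ?_⟩
      rintro ⟨e, he, s, hs, h2⟩
      rw [← List.map_take, List.mem_map] at he
      obtain ⟨i, hi, rfl⟩ := he
      rw [List.mem_take_iff_getElem] at hi
      obtain ⟨m, hm, e2⟩ := hi
      have h3 : i = ⟨k, hk⟩ := by
        have h4 : i = _ := h2
        rw [h4, List.getElem_map, List.getElem_finRange]
        rfl
      rw [h3, List.getElem_finRange] at e2
      have := congrArg Fin.val e2
      simp only [Fin.cast_mk] at this
      omega
    · intro t ht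
      rw [List.getElem_map] at ht
      simp only at ht
      omega
    · intro s t hst ht
      rw [List.getElem_map] at ht
      simp only at ht
      omega
    · intro j _ hj t ht
      refine hA _ _ fun h2 => ?_
      exact hj t ht h2
    · intro s hs t ht _
      rw [List.getElem_map] at hs ht
      simp only at hs ht
      omega) (by
    intro j
    exact ⟨((fun _ => j), 1), List.mem_map.2 ⟨j, List.mem_finRange j, rfl⟩, 0, one_pos, rfl⟩)
  rw [h1, List.map_map]
  congr 1
  rw [List.map_congr_left (g := fun _ => 1 + Nat.card K) (by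
    intro i _
    simp [Finset.sum_range_succ]), List.map_const', List.prod_replicate, List.length_finRange]

end Ord

end Cfsg.Agent.R2.H27S.Cart
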