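import Cfsg.Agent.R2.H27S.Cart

/-!
# Table `DFourB` (S5934, box S)
-/

set_option autoImplicit false
set_option maxRecDepth 20000

namespace Cfsg.Agent.R2.H27S.TabDFourB

open Cfsg.Lie Cfsg.Agent.R2.H27S.Tab Cfsg.Agent.R2.H27S.ESeven Cfsg.Agent.R2.H27S.Cart

/-- base -/
def bDFourB : Fin 4 → ℕ := ![73, 93, 87, 92]

/-- positive roots -/
def pcDFourB : List (ℕ × (Fin 4 → ℤ)) := [(73, ![1, 0, 0, 0]),
  (87, ![0, 0, 1, 0]),
  (92, ![0, 0, 0, 1]),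
  (93, ![0, 1, 0, 0]),
  (94, ![1, 1, 0, 0]),
  (103, ![0, 1, 1, 0]),
  (108, ![0, 1, 0, 1]),
  (109, ![1, 1, 1, 0]),
  (114, ![1, 1, 0, 1]),
  (123, ![0, 1, 1, 1]),
  (124, ![1, 1, 1, 1]),
  (125, ![1, 2, 1, 1])]

/-- functionals -/
def flDFourB : List ((Fin 7 → ℤ) × ℤ) := [(![0, -2, 0, 0, 2, -1, 0], 0), (![0, -2, 0, 1, 0, -1, 2], 0)]

/-- left inverse -/
def liDFourB : Fin 4 → Fin 7 → ℤ := ![![0, -6, 35, -12, -5, 2, 1], ![35, 0, 0, 0, 0, 0, 0], ![0, 7, 0, 14, 0, -14, -7], ![0, -1, 0, -2, 5, 12, 6]]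

theorem tab : Tab (Cfsg.Agent.Nodes.TypeD.A 2) bDFourB pcDFourB flDFourB liDFourB 35 where
  blt := by decide +kernel
  car := by decide +kernel
  D0 := by decide +kernel
  linv := by decide +kernel
  pc1 := by decide +kernel
  fl := by decide +kernel
  com := by decide +kernel
  nd := by decide +kernel

end Cfsg.Agent.R2.H27S.TabDFourB
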