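import Cfsg.Agent.R2.H27S.Cart

/-!
# Table `DSix` (S5934, box S)
-/

set_option autoImplicit false
set_option maxRecDepth 20000

namespace Cfsg.Agent.R2.H27S.TabDSix

open Cfsg.Lie Cfsg.Agent.R2.H27S.Tab Cfsg.Agent.R2.H27S.ESeven Cfsg.Agent.R2.H27S.Cart

/-- base -/
def bDSix : Fin 6 → ℕ := ![63, 64, 66, 69, 73, 78]

/-- positive roots -/
def pcDSix : List (ℕ × (Fin 6 → ℤ)) := [(63, ![1, 0, 0, 0, 0, 0]),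
  (64, ![0, 1, 0, 0, 0, 0]),
  (65, ![1, 1, 0, 0, 0, 0]),
  (66, ![0, 0, 1, 0, 0, 0]),
  (67, ![0, 1, 1, 0, 0, 0]),
  (68, ![1, 1, 1, 0, 0, 0]),
  (69, ![0, 0, 0, 1, 0, 0]),
  (70, ![0, 0, 1, 1, 0, 0]),
  (71, ![0, 1, 1, 1, 0, 0]),
  (72, ![1, 1, 1, 1, 0, 0]),
  (73, ![0, 0, 0, 0, 1, 0]),
  (74, ![0, 0, 0, 1, 1, 0]),
  (75, ![0, 0, 1, 1, 1, 0]),
  (76, ![0, 1, 1, 1, 1, 0]),
  (77, ![1, 1, 1, 1, 1, 0]),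
  (78, ![0, 0, 0, 0, 0, 1]),
  (79, ![0, 0, 0, 1, 0, 1]),
  (80, ![0, 0, 1, 1, 0, 1]),
  (81, ![0, 1, 1, 1, 0, 1]),
  (82, ![1, 1, 1, 1, 0, 1]),
  (83, ![0, 0, 0, 1, 1, 1]),
  (84, ![0, 0, 1, 1, 1, 1]),
  (85, ![0, 1, 1, 1, 1, 1]),
  (86, ![1, 1, 1, 1, 1, 1]),
  (87, ![0, 0, 1, 2, 1, 1]),
  (88, ![0, 1, 1, 2, 1, 1]),
  (89, ![1, 1, 1, 2, 1, 1]),
  (90, ![0, 1, 2, 2, 1, 1]),
  (91, ![1, 1, 2, 2, 1, 1]),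
  (92, ![1, 2, 2, 2, 1, 1])]

/-- functionals -/
def flDSix : List ((Fin 7 → ℤ) × ℤ) := [(![-2, 0, 0, 0, 0, 0, 0], 0)]

/-- left inverse -/
def liDSix : Fin 6 → Fin 7 → ℤ := ![![0, 0, 0, 0, 0, 0, 1], ![0, 0, 0, 0, 0, 1, 0], ![0, 0, 0, 0, 1, 0, 0], ![0, 0, 0, 1, 0, 0, 0], ![0, 0, 1, 0, 0, 0, 0], ![0, 1, 0, 0, 0, 0, 0]]

theorem tab : Tab (Cfsg.Agent.Nodes.TypeD.A 4) bDSix pcDSix flDSix liDSix 1 where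
  blt := by decide +kernel
  car := by decide +kernel
  D0 := by decide +kernel
  linv := by decide +kernel
  pc1 := by decide +kernel
  fl := by decide +kernel
  com := by decide +kernel
  nd := by decide +kernel

end Cfsg.Agent.R2.H27S.TabDSix
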